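import Mathlib

/-!
Subgroups generated by transvections over a prime field (McLaughlin's theorem): basic lemmas.

A pair `(x, φ)` with `φ x = 0` stands for the transvection `v ↦ v + φ v • x`.
-/

set_option autoImplicit false

namespace Cfsg.Agent.H92.Tv

open Module

variable {p : ℕ} [Fact p.Prime] {V : Type*} [AddCommGroup V] [Module (ZMod p) V]

/-- `G` contains the transvection of the pair `(x, φ)`. -/
def IsTv (G : Subgroup (V ≃ₗ[ZMod p] V)) (x : V) (φ : Dual (ZMod p) V) : Prop :=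
  φ x = 0 ∧ ∃ g ∈ G, ∀ v, g v = v + φ v • x

variable {G : Subgroup (V ≃ₗ[ZMod p] V)} {x y : V} {φ ψ : Dual (ZMod p) V}

lemma isTv_zero_left (φ : Dual (ZMod p) V) : IsTv G (0 : V) φ :=
  ⟨map_zero φ, 1, one_mem _, fun v => by simp⟩

lemma isTv_zero_right (x : V) : IsTv G x (0 : Dual (ZMod p) V) :=
  ⟨rfl, 1, one_mem _, fun v => by simp⟩

lemma isTv_add_right (h1 : IsTv G x φ) (h2 : IsTv G x ψ) : IsTv G x (φ + ψ) := by
  obtain ⟨hx, g, hg, hgv⟩ := h1
  obtain ⟨hx', g', hg', hgv'⟩ := h2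
  refine ⟨by simp [hx, hx'], g * g', mul_mem hg hg', fun v => ?_⟩
  rw [LinearEquiv.mul_apply, hgv', hgv]
  simp only [map_add, map_smul, hx, smul_zero, add_zero, LinearMap.add_apply]
  module

lemma isTv_add_left (h1 : IsTv G x φ) (h2 : IsTv G y φ) : IsTv G (x + y) φ := by
  obtain ⟨hx, g, hg, hgv⟩ := h1
  obtain ⟨hy, g', hg', hgv'⟩ := h2
  refine ⟨by simp [hx, hy], g * g', mul_mem hg hg', fun v => ?_⟩
  rw [LinearEquiv.mul_apply, hgv', hgv]
  simp only [map_add, map_smul, hy, smul_zero, add_zero]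
  module

lemma isTv_smul_right (c : (ZMod p)) (h : IsTv G x φ) : IsTv G x (c • φ) := by
  haveI : NeZero p := ⟨(Fact.out : p.Prime).ne_zero⟩
  rw [← ZMod.natCast_zmod_val c, Nat.cast_smul_eq_nsmul]
  induction c.val with
  | zero => simpa using isTv_zero_right x
  | succ n ih => rw [succ_nsmul]; exact isTv_add_right ih h

lemma isTv_smul_left (c : (ZMod p)) (h : IsTv G x φ) : IsTv G (c • x) φ := by
  haveI : NeZero p := ⟨(Fact.out : p.Prime).ne_zero⟩
  rw [← ZMod.natCast_zmod_val c, Nat.cast_smul_eq_nsmul]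
  induction c.val with
  | zero => simpa using isTv_zero_left φ
  | succ n ih => rw [succ_nsmul]; exact isTv_add_left ih h

lemma isTv_of_smul {c : (ZMod p)} (hc : c ≠ 0) (h : IsTv G (c • x) φ) : IsTv G x φ := by
  simpa [hc] using isTv_smul_left c⁻¹ h

/-- move a scalar from the vector to the functional -/
lemma isTv_smul_swap (c : (ZMod p)) : IsTv G (c • x) φ → IsTv G x (c • φ) := by
  rintro ⟨hx, g, hg, hgv⟩
  refine ⟨?_, g, hg, fun v => ?_⟩
  · simpa [map_smul] using hx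
  · rw [hgv]; simp [smul_smul, mul_comm]

/-- The functionals of the transvections in `G` with vector `x`. -/
def A (G : Subgroup (V ≃ₗ[ZMod p] V)) (x : V) : Submodule (ZMod p) (Dual (ZMod p) V) where
  carrier := {φ | IsTv G x φ}
  add_mem' := isTv_add_right
  zero_mem' := isTv_zero_right x
  smul_mem' c _ h := isTv_smul_right c h

lemma mem_A : φ ∈ A G x ↔ IsTv G x φ := Iff.rfl

lemma A_smul {c : (ZMod p)} (hc : c ≠ 0) : A G (c • x) = A G x := by
  ext φ
  exact ⟨fun h => isTv_of_smul hc h, fun h => isTv_smul_left c h⟩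

/-- The transported functional `φ ∘ g⁻¹`. -/
def tr (g : V ≃ₗ[ZMod p] V) (φ : Dual (ZMod p) V) : Dual (ZMod p) V := φ ∘ₗ (g.symm : V →ₗ[ZMod p] V)

lemma tr_apply (g : V ≃ₗ[ZMod p] V) (φ : Dual (ZMod p) V) (v : V) : tr g φ v = φ (g.symm v) := rfl

lemma isTv_conj {g : V ≃ₗ[ZMod p] V} (hg : g ∈ G) (h : IsTv G x φ) : IsTv G (g x) (tr g φ) := by
  obtain ⟨hx, t, ht, htv⟩ := h
  refine ⟨by simp [tr_apply, hx], g * t * g⁻¹, mul_mem (mul_mem hg ht) (inv_mem hg), fun v => ?_⟩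
  have hsymm : (g⁻¹ : V ≃ₗ[ZMod p] V) v = g.symm v := rfl
  simp [LinearEquiv.mul_apply, hsymm, htv, tr_apply]

lemma symm_tv {g : V ≃ₗ[ZMod p] V} (hx : φ x = 0) (hg : ∀ v, g v = v + φ v • x) (v : V) :
    g.symm v = v - φ v • x := by
  rw [LinearEquiv.symm_apply_eq, hg]
  simp [hx]

/-- conjugating the transvection `(y, ψ)` by the transvection `(x, φ)` -/
lemma isTv_conj_tv (h : IsTv G x φ) (h' : IsTv G y ψ) :
    IsTv G (y + φ y • x) (ψ - ψ x • φ) := by
  obtain ⟨hx, g, hg, hgv⟩ := h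
  have := isTv_conj hg h'
  rw [hgv] at this
  have e : tr g ψ = ψ - ψ x • φ := by
    ext v
    simp [tr_apply, symm_tv hx hgv, mul_comm]
  rwa [e] at this

/-- the commutator of two one-sided transvections -/
lemma isTv_commutator (h : IsTv G x φ) (h' : IsTv G y ψ) (hφ : φ y ≠ 0) (hψ : ψ x = 0) :
    IsTv G x ψ := by
  have h1 := isTv_conj_tv h h'
  rw [hψ, zero_smul, sub_zero] at h1
  have h2 := isTv_add_left h1 (isTv_smul_left (-1) h')
  rw [neg_one_smul, add_neg_cancel_comm] at h2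
  exact isTv_of_smul hφ h2

/-- `x` is the vector of a non-trivial transvection of `G`. -/
def Point (G : Subgroup (V ≃ₗ[ZMod p] V)) (x : V) : Prop := x ≠ 0 ∧ ∃ φ, IsTv G x φ ∧ φ ≠ 0

lemma point_of_tv (h : IsTv G x φ) (hx : x ≠ 0) (hφ : φ ≠ 0) : Point G x := ⟨hx, φ, h, hφ⟩

lemma point_smul {c : (ZMod p)} (hc : c ≠ 0) (h : Point G x) : Point G (c • x) := by
  obtain ⟨hx, φ, h1, h2⟩ := h
  exact ⟨smul_ne_zero hc hx, φ, isTv_smul_left c h1, h2⟩

lemma tr_ne_zero {g : V ≃ₗ[ZMod p] V} (hφ : φ ≠ 0) : tr g φ ≠ 0 := by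
  intro h
  apply hφ
  ext v
  have := LinearMap.congr_fun h (g v)
  simpa [tr_apply] using this

lemma point_conj {g : V ≃ₗ[ZMod p] V} (hg : g ∈ G) (h : Point G x) : Point G (g x) := by
  obtain ⟨hx, φ, h1, h2⟩ := h
  exact ⟨fun e => hx (g.map_eq_zero_iff.mp e), _, isTv_conj hg h1, tr_ne_zero h2⟩

/-- a line through two adjacent points consists of points -/
lemma point_line (h : IsTv G x φ) (hφ : φ y ≠ 0) (hy : Point G y) (s : (ZMod p)) : Point G (y + s • x) := by
  obtain ⟨hx, g, hg, hgv⟩ := isTv_smul_right (s * (φ y)⁻¹) h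
  have := point_conj hg hy
  rw [hgv] at this
  simpa [mul_assoc, inv_mul_cancel₀ hφ] using this

/-- `φ ↦ φ ∘ g⁻¹` as a linear equivalence -/
def trEquiv (g : V ≃ₗ[ZMod p] V) : Dual (ZMod p) V ≃ₗ[ZMod p] Dual (ZMod p) V := g.symm.dualMap

lemma finrank_A_conj [Finite V] {g : V ≃ₗ[ZMod p] V} (hg : g ∈ G) :
    finrank (ZMod p) (A G (g x)) = finrank (ZMod p) (A G x) := by
  have e : (A G x).map (trEquiv g : Dual (ZMod p) V →ₗ[ZMod p] Dual (ZMod p) V) = A G (g x) := by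
    ext φ
    rw [Submodule.mem_map]
    constructor
    · rintro ⟨ψ, hψ, rfl⟩
      exact isTv_conj hg hψ
    · intro h
      refine ⟨tr g.symm φ, ?_, ?_⟩
      · have := isTv_conj (inv_mem hg) h
        rw [show (g⁻¹ : V ≃ₗ[ZMod p] V) = g.symm from rfl, LinearEquiv.symm_apply_apply] at this
        exact this
      · ext v
        simp [trEquiv, tr]
  rw [← e]
  exact LinearEquiv.finrank_map_eq (trEquiv g) _

end Cfsg.Agent.H92.Tv
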