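import Cfsg.Agent.H92.Tv.Basic

/-! A connected transvection group without normal `p`-subgroup: general facts. -/

set_option autoImplicit false

namespace Cfsg.Agent.H92.Tv

open Module

variable {p : ℕ} [Fact p.Prime] {V : Type*} [AddCommGroup V] [Module (ZMod p) V]

/-- The span of the vectors of a set of pairs. -/
def pX (C : Set (V × Dual (ZMod p) V)) : Submodule (ZMod p) V := Submodule.span (ZMod p) (Prod.fst '' C)

/-- The common kernel of the functionals of a set of pairs. -/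
def pK (C : Set (V × Dual (ZMod p) V)) : Submodule (ZMod p) V :=
  ⨅ a ∈ C, LinearMap.ker (a : V × Dual (ZMod p) V).2

lemma mem_pK {C : Set (V × Dual (ZMod p) V)} {v : V} : v ∈ pK C ↔ ∀ a ∈ C, a.2 v = 0 := by
  simp [pK, Submodule.mem_iInf]

/-- A group generated by an indecomposable set of transvections, without normal `p`-subgroup. -/
structure Comp (G : Subgroup (V ≃ₗ[ZMod p] V)) (C : Set (V × Dual (ZMod p) V)) : Prop where
  tv : ∀ a ∈ C, IsTv G a.1 a.2
  ne : ∀ a ∈ C, a.1 ≠ 0 ∧ a.2 ≠ 0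
  nonempty : C.Nonempty
  gen : ∀ M : Subgroup (V ≃ₗ[ZMod p] V),
    (∀ a ∈ C, ∀ g ∈ G, (∀ v, g v = v + a.2 v • a.1) → g ∈ M) → G ≤ M
  split : ∀ U : Submodule (ZMod p) V, (∀ a ∈ C, a.1 ∈ U ∨ U ≤ LinearMap.ker a.2) →
    (∀ a ∈ C, a.1 ∈ U) ∨ (∀ a ∈ C, U ≤ LinearMap.ker a.2)
  noP : ∀ N : Subgroup (V ≃ₗ[ZMod p] V), N ≤ G → (∀ g ∈ G, ∀ n ∈ N, g * n * g⁻¹ ∈ N) →
    (∀ n ∈ N, ∃ k : ℕ, n ^ (p ^ k) = 1) → N = ⊥

lemma pow_apply_of_fix {g : V ≃ₗ[ZMod p] V} {v d : V} (hv : g v = v + d) (hd : g d = d) (k : ℕ) :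
    (g ^ k) v = v + k • d := by
  induction k with
  | zero => simp
  | succ n ih =>
    rw [pow_succ', LinearEquiv.mul_apply, ih, map_add, map_nsmul, hd, hv, succ_nsmul]
    abel

lemma p_nsmul (d : V) : p • d = 0 := by
  rw [← Nat.cast_smul_eq_nsmul (ZMod p) p d, ZMod.natCast_self, zero_smul]

/-- Two points see each other. -/
def Adj (G : Subgroup (V ≃ₗ[ZMod p] V)) (x y : V) : Prop := ∃ φ, IsTv G x φ ∧ φ y ≠ 0

namespace Comp

variable {G : Subgroup (V ≃ₗ[ZMod p] V)} {C : Set (V × Dual (ZMod p) V)} {x y z : V}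
  {φ : Dual (ZMod p) V} {g : V ≃ₗ[ZMod p] V} (L : Comp G C)
include L

lemma sub_mem_X (hg : g ∈ G) (v : V) : g v - v ∈ pX C := by
  let M : Subgroup (V ≃ₗ[ZMod p] V) :=
    { carrier := {g | ∀ v, g v - v ∈ pX C}
      one_mem' := fun v => by simp
      mul_mem' := fun {a b} ha hb v => by
        have := add_mem (ha (b v)) (hb v)
        simpa [LinearEquiv.mul_apply] using this
      inv_mem' := fun {a} ha v => by
        have := neg_mem (ha (a.symm v))
        rw [LinearEquiv.apply_symm_apply, neg_sub] at this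
        exact this }
  refine L.gen M (fun a ha t _ htv w => ?_) hg v
  show t w - w ∈ pX C
  rw [htv, add_sub_cancel_left]
  exact Submodule.smul_mem _ _ (Submodule.subset_span ⟨a, ha, rfl⟩)

lemma fix_K (hg : g ∈ G) {v : V} (hv : v ∈ pK C) : g v = v := by
  let M : Subgroup (V ≃ₗ[ZMod p] V) :=
    { carrier := {g | ∀ v ∈ pK C, g v = v}
      one_mem' := fun v _ => rfl
      mul_mem' := fun {a b} ha hb v hv => by rw [LinearEquiv.mul_apply, hb v hv, ha v hv]
      inv_mem' := fun {a} ha v hv => (LinearEquiv.symm_apply_eq a).mpr (ha v hv).symm }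
  refine L.gen M (fun a ha t _ htv w hw => ?_) hg v hv
  show t w = w
  rw [htv, mem_pK.mp hw a ha, zero_smul, add_zero]

lemma map_X (hg : g ∈ G) {v : V} (hv : v ∈ pX C) : g v ∈ pX C := by
  simpa using add_mem (L.sub_mem_X hg v) hv

lemma eq_one_of_small (hg : g ∈ G) (h : ∀ v ∈ pX C, g v - v ∈ pK C) : g = 1 := by
  let N : Subgroup (V ≃ₗ[ZMod p] V) :=
    { carrier := {g | g ∈ G ∧ ∀ v ∈ pX C, g v - v ∈ pK C}
      one_mem' := ⟨one_mem G, fun v _ => by simp⟩
      mul_mem' := fun {a b} ha hb => ⟨mul_mem ha.1 hb.1, fun v hv => by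
        have h1 := add_mem (hb.2 v hv) (ha.2 v hv)
        have h2 := L.fix_K ha.1 (hb.2 v hv)
        rw [map_sub] at h2
        rw [LinearEquiv.mul_apply, show a (b v) - v = (b v - v) + (a v - v) by rw [← h2]; abel]
        exact h1⟩
      inv_mem' := fun {a} ha => ⟨inv_mem ha.1, fun v hv => by
        have := neg_mem (ha.2 _ (L.map_X (inv_mem ha.1) hv))
        rw [neg_sub, ← LinearEquiv.mul_apply, mul_inv_cancel] at this
        exact this⟩ }
  have hN : N = ⊥ := by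
    refine L.noP N (fun a ha => ha.1) (fun t ht n hn => ⟨mul_mem (mul_mem ht hn.1) (inv_mem ht),
      fun v hv => ?_⟩) (fun n hn => ⟨2, ?_⟩)
    · have h1 := hn.2 _ (L.map_X (inv_mem ht) hv)
      have h2 := L.fix_K ht h1
      rw [map_sub, ← LinearEquiv.mul_apply t t⁻¹, mul_inv_cancel] at h2
      simp only [LinearEquiv.mul_apply, LinearEquiv.coe_one, id_eq] at h2 ⊢
      rw [h2]; exact h1
    · have hfix : ∀ v ∈ pX C, (n ^ p) v = v := fun v hv => by
        rw [pow_apply_of_fix (d := n v - v) (by abel) (L.fix_K hn.1 (hn.2 v hv)), p_nsmul, add_zero]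
      rw [pow_two, pow_mul]
      ext v
      rw [pow_apply_of_fix (d := (n ^ p) v - v) (by abel)
        (hfix _ (L.sub_mem_X (pow_mem hn.1 p) v)), p_nsmul, add_zero]
      rfl
  have : g ∈ N := ⟨hg, h⟩
  rwa [hN, Subgroup.mem_bot] at this

lemma tv_mem_X (h : IsTv G x φ) (hφ : φ ≠ 0) : x ∈ pX C := by
  obtain ⟨hx, g, hg, hgv⟩ := h
  obtain ⟨v, hv⟩ : ∃ v, φ v ≠ 0 := by
    by_contra hc
    push_neg at hc
    exact hφ (LinearMap.ext hc)
  have := L.sub_mem_X hg v
  rw [hgv, add_sub_cancel_left] at this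
  simpa [hv] using Submodule.smul_mem _ (φ v)⁻¹ this

lemma tv_kills_K (h : IsTv G x φ) (hx : x ≠ 0) {v : V} (hv : v ∈ pK C) : φ v = 0 := by
  obtain ⟨-, g, hg, hgv⟩ := h
  have := L.fix_K hg hv
  rw [hgv, add_eq_left] at this
  exact (smul_eq_zero.mp this).resolve_right hx

lemma tv_eq_zero (h : IsTv G x φ) (hx : x ≠ 0) (h0 : ∀ v ∈ pX C, φ v = 0) : φ = 0 := by
  obtain ⟨-, g, hg, hgv⟩ := h
  have e := L.eq_one_of_small hg fun v hv => by
    rw [hgv, h0 v hv, zero_smul, add_zero, sub_self]; exact zero_mem _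
  ext v
  have := hgv v
  rw [e] at this
  simpa [hx] using this

lemma point_not_mem_K (h : Point G x) : x ∉ pK C := by
  obtain ⟨hx, φ, hφ, hφ0⟩ := h
  intro hK
  obtain ⟨-, g, hg, hgv⟩ := hφ
  have e := L.eq_one_of_small hg fun v _ => by
    rw [hgv, add_sub_cancel_left]; exact Submodule.smul_mem _ _ hK
  refine hφ0 (LinearMap.ext fun v => ?_)
  have := hgv v
  rw [e] at this
  simpa [hx] using this

lemma point_mem_X (h : Point G x) : x ∈ pX C := by
  obtain ⟨-, φ, hφ, hφ0⟩ := h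
  exact L.tv_mem_X hφ hφ0

lemma point_of_mem {a : V × Dual (ZMod p) V} (ha : a ∈ C) : Point G a.1 :=
  point_of_tv (L.tv a ha) (L.ne a ha).1 (L.ne a ha).2

lemma X_le_of_points {U : Submodule (ZMod p) V} (h : ∀ y, Point G y → y ∈ U) : pX C ≤ U :=
  Submodule.span_le.mpr (by rintro _ ⟨a, ha, rfl⟩; exact h _ (L.point_of_mem ha))

/-- a subspace meeting the points and stable in the weak sense contains `X` -/
lemma X_le_of_split {U : Submodule (ZMod p) V} (hU : ∀ a ∈ C, a.1 ∈ U ∨ U ≤ LinearMap.ker a.2)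
    {z : V} (hz : Point G z) (hzU : z ∈ U) : pX C ≤ U := by
  rcases L.split U hU with h | h
  · exact Submodule.span_le.mpr (by rintro _ ⟨a, ha, rfl⟩; exact h a ha)
  · exact absurd (mem_pK.mpr fun a ha => h a ha hzU) (L.point_not_mem_K hz)

lemma exists_seen (h : IsTv G x φ) (hx : x ≠ 0) (hφ : φ ≠ 0) : ∃ y, Point G y ∧ φ y ≠ 0 := by
  by_contra hc
  push_neg at hc
  exact hφ (L.tv_eq_zero h hx fun v hv =>
    (L.X_le_of_points (U := LinearMap.ker φ) fun y hy => hc y hy) hv)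

omit L in
lemma finrank_two_sided [Finite V] {ψ : Dual (ZMod p) V} (hy : IsTv G y φ) (hz : IsTv G z ψ)
    (hφ : φ z ≠ 0) (hψ : ψ y ≠ 0) :
    finrank (ZMod p) (A G z) = finrank (ZMod p) (A G y) := by
  obtain ⟨-, g, hg, hgv⟩ := hy
  obtain ⟨hzz, t, ht, htv⟩ := isTv_smul_right (-(φ z * ψ y)⁻¹) hz
  have e : (t * g) z = φ z • y := by
    rw [LinearEquiv.mul_apply, hgv, htv]
    have hc : -(φ z * ψ y)⁻¹ * (ψ (z + φ z • y)) = -1 := by
      rw [map_add, hz.1, zero_add, map_smul, smul_eq_mul, neg_mul,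
        inv_mul_cancel₀ (mul_ne_zero hφ hψ)]
    rw [LinearMap.smul_apply, smul_eq_mul, hc]
    module
  rw [← finrank_A_conj (mul_mem ht hg) (x := z), e, A_smul hφ]

lemma exists_dim [Finite V] : ∃ d, 1 ≤ d ∧ ∀ y, Point G y → finrank (ZMod p) (A G y) = d := by
  obtain ⟨a, ha⟩ := L.nonempty
  obtain ⟨z₀, hz₀, hmax⟩ := Set.exists_max_image {y | Point G y}
    (fun y => finrank (ZMod p) (A G y)) (Set.toFinite _) ⟨a.1, L.point_of_mem ha⟩
  refine ⟨finrank (ZMod p) (A G z₀), ?_, fun y hy => ?_⟩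
  · obtain ⟨-, φ, hφ, hφ0⟩ := hz₀
    refine Submodule.one_le_finrank_iff.mpr fun h => hφ0 ?_
    rw [← Submodule.mem_bot (ZMod p), ← h]
    exact hφ
  let S : Set V := {z | Point G z ∧ finrank (ZMod p) (A G z) = finrank (ZMod p) (A G z₀)}
  have hU : pX C ≤ Submodule.span (ZMod p) S := by
    refine L.X_le_of_split (fun b hb => ?_) hz₀ (Submodule.subset_span ⟨hz₀, rfl⟩)
    by_cases h : ∀ z ∈ S, b.2 z = 0
    · exact Or.inr (Submodule.span_le.mpr h)
    · push_neg at h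
      obtain ⟨z, hz, hbz⟩ := h
      obtain ⟨-, g, hg, hgv⟩ := L.tv b hb
      have hgz : g z ∈ Submodule.span (ZMod p) S :=
        Submodule.subset_span ⟨point_conj hg hz.1, by rw [finrank_A_conj hg, hz.2]⟩
      have := sub_mem hgz (Submodule.subset_span hz)
      rw [hgv, add_sub_cancel_left] at this
      exact Or.inl (by simpa [hbz] using Submodule.smul_mem _ (b.2 z)⁻¹ this)
  obtain ⟨hy0, φ, hφ, hφ0⟩ := hy
  obtain ⟨z, hz, hφz⟩ : ∃ z ∈ S, φ z ≠ 0 := by
    by_contra hc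
    push_neg at hc
    exact hφ0 (L.tv_eq_zero hφ hy0 fun v hv =>
      (hU.trans (Submodule.span_le (p := LinearMap.ker φ).mpr hc)) hv)
  by_cases h : ∀ ψ, IsTv G z ψ → ψ y = 0
  · exfalso
    have hle : A G z ≤ A G y := fun ψ hψ => isTv_commutator hφ hψ hφz (h ψ hψ)
    have hlt : A G z < A G y := lt_of_le_of_ne hle fun e => hφz (by
      have : φ ∈ A G z := e ▸ hφ
      exact this.1)
    have := Submodule.finrank_lt_finrank_of_lt hlt
    have := hmax y (point_of_tv hφ hy0 hφ0)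
    have := hz.2
    omega
  · push_neg at h
    obtain ⟨ψ, hψ, hψy⟩ := h
    rw [← finrank_two_sided hφ hψ hφz hψy, hz.2]

lemma adj_symm [Finite V] (hy : Point G y) (hz : Point G z) (h : Adj G y z) : Adj G z y := by
  obtain ⟨d, -, hd⟩ := L.exists_dim
  obtain ⟨φ, hφ, hφz⟩ := h
  by_contra hc
  simp only [Adj, not_exists, not_and, not_not] at hc
  have hle : A G z ≤ A G y := fun ψ hψ => isTv_commutator hφ hψ hφz (hc ψ hψ)
  have := Submodule.eq_of_le_of_finrank_eq hle (by rw [hd y hy, hd z hz])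
  exact hφz ((this.symm ▸ hφ : φ ∈ A G z)).1

/-- a point together with the points it sees spans `X` -/
lemma span_star [Finite V] (hx : Point G x) :
    pX C ≤ Submodule.span (ZMod p) (insert x {z | Point G z ∧ Adj G x z}) := by
  set U := Submodule.span (ZMod p) (insert x {z | Point G z ∧ Adj G x z}) with hU
  refine L.X_le_of_split (fun b hb => ?_) hx (Submodule.subset_span (Set.mem_insert _ _))
  have hpb := L.point_of_mem hb
  by_cases hxb : Adj G x b.1
  · exact Or.inl (Submodule.subset_span (Or.inr ⟨hpb, hxb⟩))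
  have hbx : b.2 x = 0 := by
    by_contra h
    exact hxb (L.adj_symm hpb hx ⟨b.2, L.tv b hb, h⟩)
  by_cases hall : ∀ z, Point G z → Adj G x z → b.2 z = 0
  · refine Or.inr (Submodule.span_le.mpr ?_)
    rintro z (rfl | ⟨hz, hxz⟩)
    · exact hbx
    · exact hall z hz hxz
  · push_neg at hall
    obtain ⟨z, hz, ⟨φ, hφ, hφz⟩, hbz⟩ := hall
    obtain ⟨-, g, hg, hgv⟩ := L.tv b hb
    have hφb : φ b.1 = 0 := by
      by_contra h
      exact hxb ⟨φ, hφ, h⟩
    have hgz : g z ∈ U :=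
      Submodule.subset_span (Or.inr ⟨point_conj hg hz, φ, hφ, by rw [hgv]; simp [hφb, hφz]⟩)
    have := sub_mem hgz (Submodule.subset_span (Or.inr ⟨hz, φ, hφ, hφz⟩) : z ∈ U)
    rw [hgv, add_sub_cancel_left] at this
    exact Or.inl (by simpa [hbz] using Submodule.smul_mem _ (b.2 z)⁻¹ this)

/-- two points have a common seen point, unless they see each other -/
lemma exists_common [Finite V] (hx : Point G x) (hw : Point G y) (h : ¬ Adj G x y) :
    ∃ z, Point G z ∧ Adj G x z ∧ Adj G y z := by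
  have hyx : ¬ Adj G y x := fun h' => h (L.adj_symm hw hx h')
  obtain ⟨hy0, φ, hφ, hφ0⟩ := hw
  by_contra hc
  push_neg at hc
  refine hφ0 (L.tv_eq_zero hφ hy0 fun v hv => ?_)
  refine (Submodule.span_le (p := LinearMap.ker φ)).mpr ?_ (L.span_star hx hv)
  rintro z (rfl | ⟨hz, hxz⟩)
  · by_contra h'
    exact hyx ⟨φ, hφ, h'⟩
  · by_contra h'
    exact hc z hz hxz ⟨φ, hφ, h'⟩

end Comp

end Cfsg.Agent.H92.Tv
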