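import Cfsg.Agent.H92.Tv.Image
import Cfsg.Agent.H19.Cores

/-! Decomposition into indecomposable components. -/

set_option autoImplicit false

namespace Cfsg.Agent.H92.Tv

open Module

variable {p : ℕ} [Fact p.Prime] {V : Type*} [AddCommGroup V] [Module (ZMod p) V]

variable {G : Subgroup (V ≃ₗ[ZMod p] V)}

/-- no transvection is trivial on a stable subspace and on the quotient by it -/
lemma kernel_false
    (noP : ∀ N : Subgroup (V ≃ₗ[ZMod p] V), N ≤ G → (∀ g ∈ G, ∀ n ∈ N, g * n * g⁻¹ ∈ N) →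
      (∀ n ∈ N, ∃ k : ℕ, n ^ (p ^ k) = 1) → N = ⊥)
    {U : Submodule (ZMod p) V} (hU : ∀ g ∈ G, ∀ u ∈ U, g u ∈ U) {x : V} {φ : Dual (ZMod p) V}
    (h : IsTv G x φ) (hx : x ∈ U) (hφ : U ≤ LinearMap.ker φ) (hx0 : x ≠ 0) (hφ0 : φ ≠ 0) : False := by
  let N : Subgroup (V ≃ₗ[ZMod p] V) :=
    { carrier := {g | g ∈ G ∧ (∀ u ∈ U, g u = u) ∧ ∀ v, g v - v ∈ U}
      one_mem' := ⟨one_mem G, fun _ _ => rfl, fun v => by simp⟩
      mul_mem' := fun {a b} ha hb => ⟨mul_mem ha.1 hb.1,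
        fun u hu => by rw [LinearEquiv.mul_apply, hb.2.1 u hu, ha.2.1 u hu],
        fun v => by simpa [LinearEquiv.mul_apply] using add_mem (ha.2.2 (b v)) (hb.2.2 v)⟩
      inv_mem' := fun {a} ha => ⟨inv_mem ha.1,
        fun u hu => (LinearEquiv.symm_apply_eq a).mpr (ha.2.1 u hu).symm, fun v => by
          have := neg_mem (ha.2.2 (a.symm v))
          rw [LinearEquiv.apply_symm_apply, neg_sub] at this
          exact this⟩ }
  have hN : N = ⊥ := by
    refine noP N (fun a ha => ha.1) (fun t ht n hn => ⟨mul_mem (mul_mem ht hn.1) (inv_mem ht),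
      fun u hu => ?_, fun v => ?_⟩) fun n hn => ⟨1, ?_⟩
    · rw [LinearEquiv.mul_apply, LinearEquiv.mul_apply, hn.2.1 _ (hU _ (inv_mem ht) u hu)]
      exact t.apply_symm_apply u
    · have := hU t ht _ (hn.2.2 (t⁻¹ v))
      rw [map_sub] at this
      simpa [LinearEquiv.mul_apply, show t (t⁻¹ v) = v from t.apply_symm_apply v] using this
    · rw [pow_one]
      ext v
      rw [pow_apply_of_fix (d := n v - v) (by abel) (hn.2.1 _ (hn.2.2 v)), p_nsmul, add_zero]
      rfl
  obtain ⟨-, g, hg, hgv⟩ := h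
  have hgN : g ∈ N := ⟨hg, fun u hu => by rw [hgv, show φ u = 0 from hφ hu, zero_smul, add_zero],
    fun v => by rw [hgv, add_sub_cancel_left]; exact Submodule.smul_mem _ _ hx⟩
  rw [hN, Subgroup.mem_bot] at hgN
  refine hφ0 (LinearMap.ext fun v => ?_)
  have := hgv v
  rw [hgN] at this
  simpa [hx0] using this

/-- The non-trivial transvection pairs of `H`. -/
def Pair (H : Subgroup (V ≃ₗ[ZMod p] V)) : Type _ :=
  {a : V × Dual (ZMod p) V // IsTv H a.1 a.2 ∧ a.1 ≠ 0 ∧ a.2 ≠ 0}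

/-- Two pairs are linked when their transvections do not commute. -/
def Linked {H : Subgroup (V ≃ₗ[ZMod p] V)} (a b : Pair H) : Prop :=
  a.1.2 b.1.1 ≠ 0 ∨ b.1.2 a.1.1 ≠ 0

/-- The components. -/
def linkSetoid (H : Subgroup (V ≃ₗ[ZMod p] V)) : Setoid (Pair H) := Relation.EqvGen.setoid Linked

variable {H : Subgroup (V ≃ₗ[ZMod p] V)}

/-- The pairs of one component. -/
def classPairs (q : Quotient (linkSetoid H)) : Set (V × Dual (ZMod p) V) :=
  {a | ∃ b : Pair H, b.1 = a ∧ Quotient.mk (linkSetoid H) b = q}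

/-- The group of one component. -/
def classGroup (q : Quotient (linkSetoid H)) : Subgroup (V ≃ₗ[ZMod p] V) :=
  Subgroup.closure {g | g ∈ H ∧ ∃ a ∈ classPairs q, ∀ v, g v = v + a.2 v • a.1}

lemma classGroup_le (q : Quotient (linkSetoid H)) : classGroup q ≤ H :=
  (Subgroup.closure_le _).mpr fun _ hg => hg.1

lemma cross_zero {q r : Quotient (linkSetoid H)} (hne : q ≠ r) {a b : V × Dual (ZMod p) V}
    (ha : a ∈ classPairs q) (hb : b ∈ classPairs r) : a.2 b.1 = 0 := by
  obtain ⟨a, rfl, rfl⟩ := ha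
  obtain ⟨b, rfl, rfl⟩ := hb
  by_contra h
  exact hne (Quotient.sound (Relation.EqvGen.rel _ _ (Or.inl h)))

lemma cross_comm {q r : Quotient (linkSetoid H)} (hne : q ≠ r) :
    classGroup q ≤ Subgroup.centralizer (classGroup r : Set (V ≃ₗ[ZMod p] V)) := by
  rw [classGroup, classGroup, Subgroup.centralizer_closure, Subgroup.closure_le]
  rintro g ⟨-, a, ha, hga⟩ t ⟨-, b, hb, htb⟩
  ext v
  simp only [LinearEquiv.mul_apply, hga, htb, map_add, map_smul, cross_zero hne ha hb,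
    cross_zero hne.symm hb ha, smul_zero, zero_smul, add_zero]
  module

lemma classTv {q : Quotient (linkSetoid H)} {a : V × Dual (ZMod p) V} (ha : a ∈ classPairs q) :
    IsTv (classGroup q) a.1 a.2 := by
  obtain ⟨b, rfl, hb⟩ := ha
  obtain ⟨⟨h0, g, hg, hgv⟩, -, -⟩ := b.2
  exact ⟨h0, g, Subgroup.subset_closure ⟨hg, b.1, ⟨b, rfl, hb⟩, hgv⟩, hgv⟩

/-- `H` is generated by its transvections -/
lemma le_of_classes
    (hgen : H ≤ Subgroup.closure {g | g ∈ H ∧ ∃ a : Pair H, ∀ v, g v = v + a.1.2 v • a.1.1})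
    {M : Subgroup (V ≃ₗ[ZMod p] V)} (hM : ∀ q : Quotient (linkSetoid H), classGroup q ≤ M) : H ≤ M :=
  hgen.trans ((Subgroup.closure_le _).mpr fun g ⟨hg, a, ha⟩ =>
    hM (Quotient.mk _ a) (Subgroup.subset_closure ⟨hg, a.1, ⟨a, rfl, rfl⟩, ha⟩))

lemma class_normal
    (hgen : H ≤ Subgroup.closure {g | g ∈ H ∧ ∃ a : Pair H, ∀ v, g v = v + a.1.2 v • a.1.1})
    {q : Quotient (linkSetoid H)} {N : Subgroup (V ≃ₗ[ZMod p] V)} (hN : N ≤ classGroup q)
    (hn : ∀ g ∈ classGroup q, ∀ n ∈ N, g * n * g⁻¹ ∈ N) :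
    H ≤ Subgroup.normalizer (N : Set (V ≃ₗ[ZMod p] V)) := by
  refine le_of_classes hgen fun r g hg => ?_
  by_cases h : q = r
  · subst h
    rw [Subgroup.mem_normalizer_iff]
    refine fun n => ⟨fun hm => hn g hg n hm, fun hm => ?_⟩
    have := hn g⁻¹ (inv_mem hg) _ hm
    simpa [mul_assoc] using this
  · exact Subgroup.centralizer_le_normalizer _
      (Subgroup.centralizer_le hN (cross_comm (Ne.symm h) hg))

variable [Finite V]

lemma class_comp (hOp : Cfsg.pCore p ↥H = ⊥)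
    (hgen : H ≤ Subgroup.closure {g | g ∈ H ∧ ∃ a : Pair H, ∀ v, g v = v + a.1.2 v • a.1.1})
    (q : Quotient (linkSetoid H)) : Comp (classGroup q) (classPairs q) := by
  have noP : ∀ N : Subgroup (V ≃ₗ[ZMod p] V), N ≤ classGroup q →
      (∀ g ∈ classGroup q, ∀ n ∈ N, g * n * g⁻¹ ∈ N) → (∀ n ∈ N, ∃ k : ℕ, n ^ (p ^ k) = 1) →
      N = ⊥ := by
    intro N hN hn hp
    have h1 : (N.subgroupOf H).Normal := ⟨fun n hm g =>
      (Subgroup.mem_normalizer_iff.mp (class_normal hgen hN hn g.2) n).mp hm⟩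
    have h2 : IsPGroup p (N.subgroupOf H) := fun n => by
      obtain ⟨k, hk⟩ := hp _ n.2
      exact ⟨k, Subtype.ext (Subtype.ext (by simpa using hk))⟩
    have h3 : N.subgroupOf H ≤ Cfsg.pCore p ↥H := le_sSup ⟨h1, h2⟩
    rw [hOp, le_bot_iff, Subgroup.subgroupOf_eq_bot] at h3
    exact h3.eq_bot_of_le (hN.trans (classGroup_le q))
  refine ⟨fun a ha => classTv ha, ?_, ?_, ?_, ?_, noP⟩
  · rintro _ ⟨b, rfl, -⟩; exact b.2.2
  · obtain ⟨b, rfl⟩ := Quotient.exists_rep q
    exact ⟨b.1, b, rfl, rfl⟩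
  · exact fun M hM => (Subgroup.closure_le _).mpr fun g ⟨hg, a, ha, hga⟩ =>
      hM a ha g (Subgroup.subset_closure ⟨hg, a, ha, hga⟩) hga
  intro U hU
  have hinv : ∀ g ∈ classGroup q, ∀ u ∈ U, g u ∈ U := by
    intro g hg
    induction hg using Subgroup.closure_induction'' with
    | mem g hg =>
      obtain ⟨-, a, ha, hga⟩ := hg
      intro u hu
      rw [hga]
      rcases hU a ha with h | h
      · exact add_mem hu (Submodule.smul_mem _ _ h)
      · rw [show a.2 u = 0 from h hu, zero_smul, add_zero]; exact hu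
    | inv_mem g hg =>
      obtain ⟨-, a, ha, hga⟩ := hg
      intro u hu
      rw [show (g⁻¹ : V ≃ₗ[ZMod p] V) u = g.symm u from rfl, symm_tv (classTv ha).1 hga]
      rcases hU a ha with h | h
      · exact sub_mem hu (Submodule.smul_mem _ _ h)
      · rw [show a.2 u = 0 from h hu, zero_smul, sub_zero]; exact hu
    | one => exact fun u hu => hu
    | mul g h _ _ ihg ihh => exact fun u hu => ihg _ (ihh u hu)
  have excl : ∀ a ∈ classPairs q, a.1 ∈ U → U ≤ LinearMap.ker a.2 → False := fun a ha h1 h2 => by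
    obtain ⟨b, rfl, hb⟩ := id ha
    exact kernel_false noP hinv (classTv ha) h1 h2 b.2.2.1 b.2.2.2
  have step : ∀ a ∈ classPairs q, ∀ b ∈ classPairs q, a.1 ∈ U → U ≤ LinearMap.ker b.2 →
      a.2 b.1 = 0 := by
    intro a ha b hb h1 h2
    by_contra h
    obtain ⟨a', rfl, -⟩ := id ha
    obtain ⟨b', rfl, -⟩ := id hb
    exact kernel_false noP hinv (isTv_commutator (classTv ha) (classTv hb) h (h2 h1)) h1 h2
      a'.2.2.1 b'.2.2.2
  have side : ∀ a b : Pair H, Relation.EqvGen Linked a b → Quotient.mk (linkSetoid H) a = q →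
      (a.1.1 ∈ U ↔ b.1.1 ∈ U) := by
    intro a b h
    induction h with
    | rel a b hab =>
      intro haq
      have hbq : Quotient.mk (linkSetoid H) b = q :=
        (Quotient.sound (Relation.EqvGen.rel _ _ hab)).symm.trans haq
      have hA : a.1 ∈ classPairs q := ⟨a, rfl, haq⟩
      have hB : b.1 ∈ classPairs q := ⟨b, rfl, hbq⟩
      constructor <;> intro h1 <;> by_contra h2
      · have hk := (hU _ hB).resolve_left h2
        rcases hab with h | h
        · exact h (step _ hA _ hB h1 hk)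
        · exact h (hk h1)
      · have hk := (hU _ hA).resolve_left h2
        rcases hab with h | h
        · exact h (hk h1)
        · exact h (step _ hB _ hA h1 hk)
    | refl a => exact fun _ => Iff.rfl
    | symm a b h ih =>
      exact fun haq => (ih ((Quotient.sound h).trans haq)).symm
    | trans a b c h _ ih1 ih2 =>
      exact fun haq => (ih1 haq).trans (ih2 ((Quotient.sound h).symm.trans haq))
  by_cases hex : ∃ a : Pair H, Quotient.mk (linkSetoid H) a = q ∧ a.1.1 ∈ U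
  · obtain ⟨a, ha, haU⟩ := hex
    refine Or.inl ?_
    rintro _ ⟨b, rfl, hb⟩
    exact (side a b (Quotient.exact (ha.trans hb.symm)) ha).mp haU
  · refine Or.inr ?_
    rintro _ ⟨b, rfl, hb⟩
    exact (hU b.1 ⟨b, rfl, hb⟩).resolve_left fun h => hex ⟨b, hb, h⟩

end Cfsg.Agent.H92.Tv
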