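import Cfsg.Agent.H92.Tv.Comp

/-! The symplectic case: every point carries one transvection functional. -/

set_option autoImplicit false

namespace Cfsg.Agent.H92.Tv

open Module

variable {p : ℕ} [Fact p.Prime] {V : Type*} [AddCommGroup V] [Module (ZMod p) V]

/-- The conclusion in the symplectic case. -/
def FullSymplectic (G : Subgroup (V ≃ₗ[ZMod p] V)) (X : Submodule (ZMod p) V) : Prop :=
  ∃ B : LinearMap.BilinForm (ZMod p) X, B.IsAlt ∧ B.Nondegenerate ∧
    (∀ g ∈ G, ∀ u v u' v' : X, g (u : V) = u' → g (v : V) = v' → B u' v' = B u v) ∧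
    ∀ (x : X) (c : ZMod p), ∃ φ, IsTv G (x : V) φ ∧ ∀ v : X, φ v = c * B x v

lemma two_ne_zero_of_odd (hp : Odd p) : (2 : ZMod p) ≠ 0 := by
  intro h
  rw [show (2 : ZMod p) = ((2 : ℕ) : ZMod p) by norm_num, ZMod.natCast_eq_zero_iff] at h
  have h2 := Nat.le_of_dvd (by norm_num) h
  have h1 := (Fact.out : p.Prime).two_le
  have : p = 2 := by omega
  subst this
  exact absurd hp (by decide)

namespace Comp

variable [Finite V] {G : Subgroup (V ≃ₗ[ZMod p] V)} {C : Set (V × Dual (ZMod p) V)}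
  (L : Comp G C) (hd : ∀ y, Point G y → finrank (ZMod p) (A G y) = 1)
include L hd

lemma sp_scalar {x : V} {φ ψ : Dual (ZMod p) V} (hx : x ≠ 0) (hφ : IsTv G x φ) (hφ0 : φ ≠ 0)
    (hψ : IsTv G x ψ) : ∃ c : ZMod p, ψ = c • φ := by
  obtain ⟨c, hc⟩ := (finrank_eq_one_iff_of_nonzero' (⟨φ, hφ⟩ : A G x)
    (fun h => hφ0 (congrArg Subtype.val h))).mp (hd x (point_of_tv hφ hx hφ0)) ⟨ψ, hψ⟩
  exact ⟨c, (congrArg Subtype.val hc).symm⟩

lemma sp_zero_symm {y z : V} {ψ χ : Dual (ZMod p) V} (hy : y ≠ 0) (hψ : IsTv G y ψ) (hψ0 : ψ ≠ 0)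
    (hz : z ≠ 0) (hχ : IsTv G z χ) (h : ψ z = 0) : χ y = 0 := by
  by_contra hc
  have hχ0 : χ ≠ 0 := fun e => hc (by rw [e]; rfl)
  obtain ⟨η, hη, hηz⟩ := L.adj_symm (point_of_tv hχ hz hχ0) (point_of_tv hψ hy hψ0) ⟨χ, hχ, hc⟩
  obtain ⟨c, rfl⟩ := L.sp_scalar hd hy hψ hψ0 hη
  exact hηz (by simp [h])

/-- normalised pairs relative to a base pair -/
def Norm (G : Subgroup (V ≃ₗ[ZMod p] V)) (x₀ : V) (φ₀ : Dual (ZMod p) V) :
    Set (V × Dual (ZMod p) V) :=
  insert (x₀, φ₀) {a | IsTv G a.1 a.2 ∧ φ₀ a.1 ≠ 0 ∧ a.2 x₀ = -φ₀ a.1}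

lemma sp_exists_norm {x₀ y : V} {φ₀ : Dual (ZMod p) V} (h0 : IsTv G x₀ φ₀) (hx₀ : x₀ ≠ 0)
    (hφ₀ : φ₀ ≠ 0) (hy : Point G y) (hne : φ₀ y ≠ 0) : ∃ ψ, (y, ψ) ∈ Norm G x₀ φ₀ := by
  obtain ⟨ψ, hψ, hψx⟩ := L.adj_symm (point_of_tv h0 hx₀ hφ₀) hy ⟨φ₀, h0, hne⟩
  refine ⟨(-φ₀ y / ψ x₀) • ψ, Or.inr ⟨isTv_smul_right _ hψ, hne, ?_⟩⟩
  simp [div_mul_cancel₀ _ hψx]

lemma sp_skew {x₀ : V} {φ₀ : Dual (ZMod p) V} (h0 : IsTv G x₀ φ₀) (hx₀ : x₀ ≠ 0)
    {a b : V × Dual (ZMod p) V} (ha : a ∈ Norm G x₀ φ₀) (hb : b ∈ Norm G x₀ φ₀) :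
    a.2 b.1 = -b.2 a.1 := by
  rcases ha with rfl | ⟨ha, hna, hax⟩ <;> rcases hb with rfl | ⟨hb, hnb, hbx⟩
  · simp [h0.1]
  · simp [hbx]
  · simp [hax]
  obtain ⟨y, ψ⟩ := a
  obtain ⟨z, χ⟩ := b
  dsimp only at *
  have hψ0 : ψ ≠ 0 := fun e => hna (by rw [e] at hax; simpa using hax.symm)
  have hy0 : y ≠ 0 := fun e => hna (by rw [e, map_zero])
  have hz0 : z ≠ 0 := fun e => hnb (by rw [e, map_zero])
  by_cases hz : ψ z = 0
  · rw [hz, L.sp_zero_symm hd hy0 ha hψ0 hz0 hb hz, neg_zero]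
  set s := -φ₀ z / ψ z with hs
  have hs0 : s ≠ 0 := div_ne_zero (neg_ne_zero.mpr hnb) hz
  have hu : IsTv G (x₀ + s • y) (φ₀ + s • ψ) := by
    have := isTv_conj_tv (isTv_smul_right (-s / φ₀ y) ha) h0
    have e1 : ((-s / φ₀ y) • ψ) x₀ = s := by
      rw [LinearMap.smul_apply, hax, smul_eq_mul]; field_simp
    have e2 : φ₀ - φ₀ y • ((-s / φ₀ y) • ψ) = φ₀ + s • ψ := by
      rw [smul_smul, mul_div_cancel₀ _ hna, neg_smul, sub_neg_eq_add]
    rwa [e1, e2] at this
  have hu0 : x₀ + s • y ≠ 0 := fun e => by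
    have := congrArg φ₀ e
    simp [h0.1, hs0, hna] at this
  have hf0 : φ₀ + s • ψ ≠ 0 := fun e => by
    have := LinearMap.congr_fun e x₀
    simp [h0.1, hs0, hax, hna] at this
  have h2 := L.sp_zero_symm hd hu0 hu hf0 hz0 hb (by simp [hs, div_mul_cancel₀ _ hz])
  rw [map_add, map_smul, hbx, smul_eq_mul] at h2
  have h3 : s * ψ z = -φ₀ z := div_mul_cancel₀ _ hz
  have h4 : s * (ψ z + χ y) = 0 := by linear_combination h2 + h3
  linear_combination (mul_eq_zero.mp h4).resolve_left hs0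

lemma sp_span {x₀ : V} {φ₀ : Dual (ZMod p) V} (h0 : IsTv G x₀ φ₀) (hx₀ : x₀ ≠ 0) (hφ₀ : φ₀ ≠ 0) :
    pX C ≤ Submodule.span (ZMod p) (Prod.fst '' Norm G x₀ φ₀) := by
  refine (L.span_star (point_of_tv h0 hx₀ hφ₀)).trans (Submodule.span_mono ?_)
  rintro z (rfl | ⟨hz, η, hη, hηz⟩)
  · exact ⟨(_, φ₀), Or.inl rfl, rfl⟩
  · obtain ⟨c, rfl⟩ := L.sp_scalar hd hx₀ h0 hφ₀ hη
    obtain ⟨ψ, hψ⟩ := L.sp_exists_norm hd h0 hx₀ hφ₀ hz (fun e => hηz (by simp [e]))
    exact ⟨(z, ψ), hψ, rfl⟩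

omit [Finite V] in
lemma norm_mem_X {x₀ : V} {φ₀ : Dual (ZMod p) V} (h0 : IsTv G x₀ φ₀) (hφ₀ : φ₀ ≠ 0)
    {a : V × Dual (ZMod p) V} (ha : a ∈ Norm G x₀ φ₀) : a.1 ∈ pX C := by
  rcases ha with rfl | ⟨ha, hna, hax⟩
  · exact L.tv_mem_X h0 hφ₀
  · exact L.tv_mem_X ha fun e => hna (by rw [e] at hax; simpa using hax.symm)

lemma sp_exists_B (hp : Odd p) : ∃ B : LinearMap.BilinForm (ZMod p) (pX C), B.IsAlt ∧
    (∀ (x : pX C) (φ : Dual (ZMod p) V), x ≠ 0 → IsTv G (x : V) φ →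
      ∃ c : ZMod p, ∀ v : pX C, φ v = c * B x v) := by
  obtain ⟨a₀, ha₀⟩ := L.nonempty
  set x₀ := a₀.1
  set φ₀ := a₀.2
  have h0 : IsTv G x₀ φ₀ := L.tv a₀ ha₀
  obtain ⟨hx₀, hφ₀⟩ := L.ne a₀ ha₀
  let Q := Norm G x₀ φ₀
  let T : (Q →₀ ZMod p) →ₗ[ZMod p] pX C :=
    Finsupp.linearCombination (ZMod p) fun q : Q => ⟨(q : V × Dual (ZMod p) V).1, L.norm_mem_X hd h0 hφ₀ q.2⟩
  let T' : (Q →₀ ZMod p) →ₗ[ZMod p] Dual (ZMod p) (pX C) :=
    Finsupp.linearCombination (ZMod p) fun q : Q => (pX C).subtype.dualMap (q : V × Dual (ZMod p) V).2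
  have hspan : ∀ v : pX C, (v : V) ∈ Submodule.span (ZMod p) (Prod.fst '' Q) :=
    fun v => L.sp_span hd h0 hx₀ hφ₀ v.2
  have hT : Function.Surjective T := by
    rw [← LinearMap.range_eq_top, eq_top_iff]
    intro v _
    have : ∀ w ∈ Submodule.span (ZMod p) (Prod.fst '' Q), ∃ l, ((T l : pX C) : V) = w := by
      intro w hw
      induction hw using Submodule.span_induction with
      | mem w hw =>
        obtain ⟨q, hq, rfl⟩ := hw
        exact ⟨Finsupp.single ⟨q, hq⟩ 1, by simp [T]⟩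
      | zero => exact ⟨0, by simp⟩
      | add a b _ _ ha hb =>
        obtain ⟨l, rfl⟩ := ha; obtain ⟨m, rfl⟩ := hb
        exact ⟨l + m, by simp⟩
      | smul c a _ ha =>
        obtain ⟨l, rfl⟩ := ha
        exact ⟨c • l, by simp⟩
    obtain ⟨l, hl⟩ := this _ (hspan v)
    exact ⟨l, Subtype.ext hl⟩
  have hpair : ∀ (l : Q →₀ ZMod p) (r : Q),
      T' l ⟨(r : V × Dual (ZMod p) V).1, L.norm_mem_X hd h0 hφ₀ r.2⟩ =
        -(r : V × Dual (ZMod p) V).2 (T l : V) := by
    intro l r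
    induction l using Finsupp.induction_linear with
    | zero => simp
    | add l m hl hm => simp [hl, hm, add_comm]
    | single q c =>
      simp [T, T', L.sp_skew hd h0 hx₀ q.2 r.2]
  obtain ⟨s, hs⟩ := T.exists_rightInverse_of_surjective (LinearMap.range_eq_top.mpr hT)
  let B : LinearMap.BilinForm (ZMod p) (pX C) := T' ∘ₗ s
  have hB : ∀ q : Q, B ⟨(q : V × Dual (ZMod p) V).1, L.norm_mem_X hd h0 hφ₀ q.2⟩ =
      (pX C).subtype.dualMap (q : V × Dual (ZMod p) V).2 := by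
    intro q
    set qv : pX C := ⟨(q : V × Dual (ZMod p) V).1, L.norm_mem_X hd h0 hφ₀ q.2⟩
    have hl : T (s qv - Finsupp.single q 1) = 0 := by
      have := LinearMap.congr_fun hs qv
      simp only [LinearMap.comp_apply, LinearMap.id_apply] at this
      rw [map_sub, this]
      simp [T, qv]
    have h2 : T' (s qv - Finsupp.single q 1) = 0 := by
      refine LinearMap.ext fun v => ?_
      obtain ⟨m, rfl⟩ := hT v
      induction m using Finsupp.induction_linear with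
      | zero => simp
      | add l m hl hm => rw [map_add, map_add, hl, hm]; simp
      | single r c =>
        have := hpair (s qv - Finsupp.single q 1) r
        rw [hl] at this
        simp only [ZeroMemClass.coe_zero, map_zero, neg_zero] at this
        rw [Finsupp.linearCombination_single, map_smul, this]; simp
    rw [map_sub, sub_eq_zero] at h2
    show T' (s qv) = _
    rw [h2]; simp [T']
  have hskew : ∀ u v, B u v = -B v u := by
    intro u v
    obtain ⟨l, rfl⟩ := hT u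
    induction l using Finsupp.induction_linear with
    | zero => simp
    | add l m hl hm => simp only [map_add, LinearMap.add_apply, hl, hm]; ring
    | single q c =>
      obtain ⟨m, rfl⟩ := hT v
      induction m using Finsupp.induction_linear with
      | zero => simp
      | add l m hl hm => simp only [map_add, LinearMap.add_apply, hl, hm]; ring
      | single r e =>
        simp only [T, Finsupp.linearCombination_single, map_smul, LinearMap.smul_apply, hB,
          LinearMap.dualMap_apply, Submodule.subtype_apply, smul_eq_mul]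
        rw [L.sp_skew hd h0 hx₀ q.2 r.2]
        ring
  refine ⟨B, fun u => ?_, ?_⟩
  · have h := hskew u u
    have h' : (2 : ZMod p) * B u u = 0 := by linear_combination h
    exact (mul_eq_zero.mp h').resolve_left (two_ne_zero_of_odd hp)
  intro w φ hw hφ
  have hw0 : (w : V) ≠ 0 := fun e => hw (Subtype.ext e)
  by_cases hφ0 : φ = 0
  · exact ⟨0, fun v => by simp [hφ0]⟩
  have hwp : Point G (w : V) := point_of_tv hφ hw0 hφ0
  by_cases hnw : φ₀ (w : V) = 0
  · have hnadj : ¬ Adj G x₀ (w : V) := fun ⟨η, hη, hηw⟩ => by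
      obtain ⟨c, rfl⟩ := L.sp_scalar hd hx₀ h0 hφ₀ hη
      exact hηw (by simp [hnw])
    obtain ⟨z, hz, ⟨η, hη, hηz⟩, ⟨η', hη', hη'z⟩⟩ :=
      L.exists_common (point_of_tv h0 hx₀ hφ₀) hwp hnadj
    obtain ⟨c, rfl⟩ := L.sp_scalar hd hx₀ h0 hφ₀ hη
    obtain ⟨c', rfl⟩ := L.sp_scalar hd hw0 hφ hφ0 hη'
    have hz0 : φ₀ z ≠ 0 := fun e => hηz (by simp [e])
    have hφz : φ z ≠ 0 := fun e => hη'z (by simp [e])
    obtain ⟨χ, hχ⟩ := L.sp_exists_norm hd h0 hx₀ hφ₀ hz hz0
    rcases hχ with e | ⟨hχ, -, hχx⟩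
    · obtain rfl : z = x₀ := congrArg Prod.fst e
      exact absurd h0.1 hz0
    dsimp only at *
    have hχ0 : χ ≠ 0 := fun e => hz0 (by rw [e] at hχx; simpa using hχx.symm)
    have hφx : φ x₀ = 0 := L.sp_zero_symm hd hx₀ h0 hφ₀ hw0 hφ hnw
    have hχw : χ (w : V) ≠ 0 := fun e => hφz (L.sp_zero_symm hd hz.1 hχ hχ0 hw0 hφ e)
    have hz' : (z + φ z • (w : V), χ - χ (w : V) • φ) ∈ Norm G x₀ φ₀ := by
      refine Or.inr ⟨isTv_conj_tv hφ hχ, ?_, ?_⟩ <;> simp [hnw, hφx, hz0, hχx]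
    have hzn : (z, χ) ∈ Norm G x₀ φ₀ := Or.inr ⟨hχ, hz0, hχx⟩
    refine ⟨-(φ z / χ (w : V)), fun v => ?_⟩
    have h1 := LinearMap.congr_fun (hB ⟨_, hz'⟩) v
    have h2 := LinearMap.congr_fun (hB ⟨_, hzn⟩) v
    have e : (⟨z + φ z • (w : V), L.norm_mem_X hd h0 hφ₀ hz'⟩ : pX C) =
        ⟨z, L.norm_mem_X hd h0 hφ₀ hzn⟩ + φ z • w := Subtype.ext rfl
    simp only [e, map_add, map_smul, LinearMap.add_apply, LinearMap.smul_apply, smul_eq_mul,
      LinearMap.dualMap_apply, Submodule.subtype_apply, LinearMap.sub_apply] at h1 h2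
    rw [h2] at h1
    field_simp
    linear_combination h1
  · obtain ⟨ψ, hψ⟩ := L.sp_exists_norm hd h0 hx₀ hφ₀ hwp hnw
    rcases hψ with e | ⟨hψ, hn, hψx⟩
    · have e' : (w : V) = x₀ := congrArg Prod.fst e
      exact absurd (show φ₀ (w : V) = 0 by rw [e']; exact h0.1) hnw
    dsimp only at *
    have hψ0 : ψ ≠ 0 := fun e => hn (by rw [e] at hψx; simpa using hψx.symm)
    obtain ⟨c, rfl⟩ := L.sp_scalar hd hw0 hψ hψ0 hφ
    refine ⟨c, fun v => ?_⟩
    have h1 := LinearMap.congr_fun (hB ⟨((w : V), ψ), Or.inr ⟨hψ, hn, hψx⟩⟩) v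
    simp only [LinearMap.dualMap_apply, Submodule.subtype_apply, Subtype.coe_eta] at h1
    rw [h1]; simp

lemma sp_full (hp : Odd p) : pX C ⊓ pK C = ⊥ ∧ FullSymplectic G (pX C) := by
  obtain ⟨B, hBalt, hBtv⟩ := L.sp_exists_B hd hp
  have hsk : ∀ u v, B v u = -B u v := fun u v => (hBalt.neg_eq u v).symm
  have rad : ∀ u : pX C, B u = 0 → (u : V) ∈ pK C := by
    intro u hu
    refine mem_pK.mpr fun a ha => ?_
    obtain ⟨c, hc⟩ := hBtv ⟨a.1, L.tv_mem_X (L.tv a ha) (L.ne a ha).2⟩ a.2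
      (fun e => (L.ne a ha).1 (congrArg Subtype.val e)) (L.tv a ha)
    rw [hc u, hsk u, hu]; simp
  -- the functional of a point
  have fn : ∀ x : pX C, Point G (x : V) → ∃ φ a, IsTv G (x : V) φ ∧ φ ≠ 0 ∧ a ≠ 0 ∧
      ∀ v : pX C, φ v = a * B x v := by
    rintro x ⟨hx, φ, hφ, hφ0⟩
    obtain ⟨a, ha⟩ := hBtv x φ (fun e => hx (by rw [e]; rfl)) hφ
    refine ⟨φ, a, hφ, hφ0, fun e => hφ0 (L.tv_eq_zero hφ hx fun v hv => ?_), ha⟩
    rw [ha ⟨v, hv⟩, e, zero_mul]
  have uniq : ∀ x y : pX C, Point G (x : V) → Point G (y : V) → B x = B y → x = y := by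
    intro x y hx hy e
    obtain ⟨φ, a, hφ, hφ0, ha, hφv⟩ := fn x hx
    obtain ⟨ψ, b, hψ, -, hb, hψv⟩ := fn y hy
    obtain ⟨-, g, hg, hgv⟩ := hφ
    obtain ⟨-, t, ht, htv⟩ := isTv_smul_right (-(a / b)) hψ
    have hK : ((x - y : pX C) : V) ∈ pK C := rad _ (by rw [map_sub, e, sub_self])
    have hsm : ∀ v ∈ pX C, (g * t) v - v = φ v • ((x : V) - (y : V)) := by
      intro v hv
      rw [LinearEquiv.mul_apply, hgv, htv]
      simp only [map_add, map_smul, LinearMap.smul_apply, hψv ⟨v, hv⟩, hφv y, e, hBalt.self_eq_zero,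
        mul_zero, smul_zero, add_zero, hφv ⟨v, hv⟩, smul_eq_mul]
      rw [neg_mul, ← mul_assoc, div_mul_cancel₀ _ hb]
      module
    have h1 := L.eq_one_of_small (mul_mem hg ht) fun v hv => by
      rw [hsm v hv]; exact Submodule.smul_mem _ _ hK
    obtain ⟨v, hv, hvne⟩ : ∃ v ∈ pX C, φ v ≠ 0 := by
      by_contra hc
      push_neg at hc
      exact hφ0 (L.tv_eq_zero ⟨(show φ (x : V) = 0 by rw [hφv x, hBalt.self_eq_zero, mul_zero]),
        g, hg, hgv⟩ hx.1 hc)
    have h2 := hsm v hv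
    rw [h1, LinearEquiv.coe_one, id_eq, sub_self] at h2
    exact Subtype.ext (sub_eq_zero.mp ((smul_eq_zero.mp h2.symm).resolve_left hvne))
  have line : ∀ x y : pX C, Point G (x : V) → Point G (y : V) → B x y ≠ 0 → ∀ s : ZMod p,
      Point G ((y + s • x : pX C) : V) := by
    intro x y hx hy hne s
    obtain ⟨φ, a, hφ, -, ha, hφv⟩ := fn x hx
    exact point_line hφ (by rw [hφv y]; exact mul_ne_zero ha hne) hy s
  have padd : ∀ x y : pX C, Point G (x : V) → Point G (y : V) → x + y = 0 ∨ Point G ((x + y : pX C) : V) := by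
    intro x y hx hy
    by_cases hxy : B x y = 0
    swap
    · have := line x y hx hy hxy 1
      rw [one_smul, add_comm] at this
      exact Or.inr this
    have hyx : B y x = 0 := by rw [hsk x, hxy, neg_zero]
    by_cases hprop : ∃ c : ZMod p, B y = c • B x
    · obtain ⟨c, hc⟩ := hprop
      have hc0 : c ≠ 0 := fun e => L.point_not_mem_K hy (rad y (by rw [hc, e, zero_smul]))
      have e : c • x = y := uniq _ _ (point_smul hc0 hx) hy (by rw [map_smul, hc])
      rw [← e, show x + c • x = (1 + c) • x by rw [add_smul, one_smul]]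
      by_cases h1c : (1 : ZMod p) + c = 0
      · exact Or.inl (by rw [h1c, zero_smul])
      · exact Or.inr (point_smul h1c hx)
    right
    obtain ⟨z, hzp, hf, hg', hfg⟩ : ∃ z : pX C, Point G (z : V) ∧ B x z ≠ 0 ∧ B y z ≠ 0 ∧
        B x z + B y z ≠ 0 := by
      obtain ⟨φ, a, hφ, hφ0, ha, hφv⟩ := fn x hx
      obtain ⟨ψ, b, hψ, hψ0, hb, hψv⟩ := fn y hy
      have hnadj : ¬ Adj G (x : V) (y : V) := fun ⟨η, hη, hηy⟩ => by
        obtain ⟨c, rfl⟩ := L.sp_scalar hd hx.1 hφ hφ0 hη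
        exact hηy (by simp [hφv y, hxy])
      obtain ⟨z, hz, ⟨η, hη, hηz⟩, ⟨η', hη', hη'z⟩⟩ := L.exists_common hx hy hnadj
      obtain ⟨c, rfl⟩ := L.sp_scalar hd hx.1 hφ hφ0 hη
      obtain ⟨c', rfl⟩ := L.sp_scalar hd hy.1 hψ hψ0 hη'
      let zz : pX C := ⟨z, L.point_mem_X hz⟩
      have hfz : B x zz ≠ 0 := fun e => hηz (by simp [show φ z = a * B x zz from hφv zz, e])
      have hgz : B y zz ≠ 0 := fun e => hη'z (by simp [show ψ z = b * B y zz from hψv zz, e])
      by_cases hs : B x zz + B y zz = 0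
      swap
      · exact ⟨zz, hz, hfz, hgz, hs⟩
      -- a second point on which `B x + B y` does not vanish
      obtain ⟨u, hu, hfu, hsu⟩ : ∃ u : pX C, Point G (u : V) ∧ B x u ≠ 0 ∧ B x u + B y u ≠ 0 := by
        by_contra hc
        push_neg at hc
        apply hprop
        refine ⟨-1, LinearMap.ext fun v => ?_⟩
        have : ∀ w ∈ Submodule.span (ZMod p) (insert (x : V) {z | Point G z ∧ Adj G (x : V) z}),
            ∃ w' : pX C, (w' : V) = w ∧ B x w' + B y w' = 0 := by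
          intro w hw
          induction hw using Submodule.span_induction with
          | mem w hw =>
            rcases hw with rfl | ⟨hw, η, hη, hηw⟩
            · exact ⟨x, rfl, by rw [hBalt.self_eq_zero, hyx, add_zero]⟩
            · obtain ⟨e, rfl⟩ := L.sp_scalar hd hx.1 hφ hφ0 hη
              refine ⟨⟨w, L.point_mem_X hw⟩, rfl, hc _ hw fun e' => hηw ?_⟩
              simp [show φ w = a * B x ⟨w, L.point_mem_X hw⟩ from hφv ⟨w, L.point_mem_X hw⟩, e']
          | zero => exact ⟨0, rfl, by simp⟩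
          | add u v _ _ hu hv =>
            obtain ⟨u', rfl, hu⟩ := hu
            obtain ⟨v', rfl, hv⟩ := hv
            exact ⟨u' + v', rfl, by rw [map_add, map_add]; linear_combination hu + hv⟩
          | smul e u _ hu =>
            obtain ⟨u', rfl, hu⟩ := hu
            exact ⟨e • u', rfl, by rw [map_smul, map_smul, smul_eq_mul, smul_eq_mul]; linear_combination e * hu⟩
        obtain ⟨v', hv', hsum⟩ := this _ (L.span_star hx v.2)
        rw [Subtype.ext hv'] at hsum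
        rw [LinearMap.smul_apply, smul_eq_mul]
        linear_combination hsum
      by_cases hgu : B y u = 0
      swap
      · exact ⟨u, hu, hfu, hgu, hsu⟩
      obtain ⟨c₁, hc₁⟩ : ∃ c₁ : ZMod p, B zz (u + c₁ • x) ≠ 0 := by
        by_cases h : B zz u = 0
        · exact ⟨1, by rw [one_smul, map_add, h, zero_add, hsk x]; exact neg_ne_zero.mpr hfz⟩
        · exact ⟨0, by simpa using h⟩
      have hu' := line x u hx hu hfu c₁
      set u' := u + c₁ • x with hu'e
      have hfu' : B x u' = B x u := by simp [hu'e, hBalt.self_eq_zero]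
      have hgu' : B y u' = 0 := by simp [hu'e, hgu, hyx]
      have hz2 := line u' zz hu' hz (by rw [hsk zz]; exact neg_ne_zero.mpr hc₁) (B x zz / B x u)
      have hf2 : B x (zz + (B x zz / B x u) • u') = 2 * B x zz := by
        rw [map_add, map_smul, hfu', smul_eq_mul, div_mul_cancel₀ _ hfu]; ring
      have hg2 : B y (zz + (B x zz / B x u) • u') = B y zz := by simp [hgu']
      refine ⟨_, hz2, ?_, by rw [hg2]; exact hgz, ?_⟩
      · rw [hf2]; exact mul_ne_zero (two_ne_zero_of_odd hp) hfz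
      · rw [hf2, hg2, show 2 * B x zz + B y zz = B x zz by linear_combination hs]
        exact hfz
    have h1 := line x z hx hzp hf 1
    rw [one_smul] at h1
    have h2 := line y (z + x) hy h1 (by rw [map_add, hyx, add_zero]; exact hg') 1
    rw [one_smul] at h2
    have h3 := line z (z + x + y) hzp h2 (by
      simp only [map_add, hBalt.self_eq_zero, zero_add, hsk x z, hsk y z]
      rw [← neg_add]
      exact neg_ne_zero.mpr hfg) (-1)
    rw [show z + x + y + (-1 : ZMod p) • z = x + y by module] at h3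
    exact h3
  have pall : ∀ v : pX C, v = 0 ∨ Point G (v : V) := by
    rintro ⟨v, hv⟩
    induction hv using Submodule.span_induction with
    | mem v hv => obtain ⟨a, ha, rfl⟩ := hv; exact Or.inr (L.point_of_mem ha)
    | zero => exact Or.inl rfl
    | add a b ha hb iha ihb =>
      rcases iha with ha' | ha'
      · obtain rfl : a = 0 := congrArg Subtype.val ha'
        rcases ihb with h | h
        · exact Or.inl (Subtype.ext (by simpa using congrArg Subtype.val h))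
        · exact Or.inr (by simpa using h)
      rcases ihb with hb' | hb'
      · obtain rfl : b = 0 := congrArg Subtype.val hb'
        simpa using Or.inr ha'
      exact padd ⟨a, ha⟩ ⟨b, hb⟩ ha' hb'
    | smul c a ha ih =>
      rcases ih with ha' | ha'
      · obtain rfl : a = 0 := congrArg Subtype.val ha'
        exact Or.inl (Subtype.ext (smul_zero c))
      by_cases hc : c = 0
      · exact Or.inl (Subtype.ext (show c • a = (0 : V) by rw [hc, zero_smul]))
      · exact Or.inr (point_smul hc ha')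
  have hinf : pX C ⊓ pK C = ⊥ := by
    rw [Submodule.eq_bot_iff]
    rintro v ⟨hv, hK⟩
    rcases pall ⟨v, hv⟩ with h | h
    · exact congrArg Subtype.val h
    · exact absurd hK (L.point_not_mem_K h)
  have sep : ∀ u : pX C, B u = 0 → u = 0 := fun u hu => Subtype.ext (by
    have : (u : V) ∈ pX C ⊓ pK C := ⟨u.2, rad u hu⟩
    rw [hinf, Submodule.mem_bot] at this
    exact this)
  refine ⟨hinf, B, hBalt, ?_, ?_, ?_⟩
  · exact ⟨fun u hu => sep u (LinearMap.ext hu),
      fun u hu => sep u (LinearMap.ext fun v => by rw [hsk v, hu v, neg_zero]; rfl)⟩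
  · let M : Subgroup (V ≃ₗ[ZMod p] V) :=
      { carrier := {g | g ∈ G ∧ ∀ u v u' v' : pX C, g (u : V) = u' → g (v : V) = v' → B u' v' = B u v}
        one_mem' := ⟨one_mem G, fun u v u' v' hu hv => by
          rw [show u = u' from Subtype.ext hu, show v = v' from Subtype.ext hv]⟩
        mul_mem' := fun {a b} ha hb => ⟨mul_mem ha.1 hb.1, fun u v u' v' hu hv => by
          rw [ha.2 ⟨b u, L.map_X hb.1 u.2⟩ ⟨b v, L.map_X hb.1 v.2⟩ u' v' hu hv,
            hb.2 u v _ _ rfl rfl]⟩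
        inv_mem' := fun {a} ha => ⟨inv_mem ha.1, fun u v u' v' hu hv => by
          refine (ha.2 u' v' u v ?_ ?_).symm
          · rw [← hu]; exact a.apply_symm_apply _
          · rw [← hv]; exact a.apply_symm_apply _⟩ }
    intro g hg
    refine (L.gen M (fun a ha t ht htv => ⟨ht, fun u v u' v' hu hv => ?_⟩) hg).2
    let x : pX C := ⟨a.1, L.tv_mem_X (L.tv a ha) (L.ne a ha).2⟩
    obtain ⟨c, hc⟩ := hBtv x a.2 (fun e => (L.ne a ha).1 (congrArg Subtype.val e)) (L.tv a ha)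
    have eu : u' = u + (c * B x u) • x := Subtype.ext (by rw [← hu, htv, hc u]; rfl)
    have ev : v' = v + (c * B x v) • x := Subtype.ext (by rw [← hv, htv, hc v]; rfl)
    simp only [eu, ev, map_add, map_smul, LinearMap.add_apply, LinearMap.smul_apply, smul_eq_mul,
      hBalt.self_eq_zero, hsk x u]
    ring
  · intro x c
    rcases pall x with rfl | hx
    · obtain ⟨φ, hφ⟩ := LinearMap.exists_extend (c • B 0)
      exact ⟨φ, by simpa using isTv_zero_left φ, fun v => by simpa using LinearMap.congr_fun hφ v⟩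
    obtain ⟨φ, a, hφ, -, ha, hφv⟩ := fn x hx
    refine ⟨(c / a) • φ, isTv_smul_right _ hφ, fun v => ?_⟩
    rw [LinearMap.smul_apply, hφv, smul_eq_mul]
    field_simp

end Comp

end Cfsg.Agent.H92.Tv
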