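import Cfsg.Agent.H92.Tv.Lin
import Cfsg.Agent.H92.Tv.Sp

/-! Splitting off the fixed points, through the dual module. -/

set_option autoImplicit false

namespace Cfsg.Agent.H92.Tv

open Module

variable {p : ℕ} [Fact p.Prime] {V : Type*} [AddCommGroup V] [Module (ZMod p) V]

/-- The contragredient action. -/
def trHom : (V ≃ₗ[ZMod p] V) →* (Dual (ZMod p) V ≃ₗ[ZMod p] Dual (ZMod p) V) where
  toFun := trEquiv
  map_one' := by ext; rfl
  map_mul' _ _ := by ext; rfl

lemma trHom_apply (g : V ≃ₗ[ZMod p] V) (f : Dual (ZMod p) V) (v : V) :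
    trHom g f v = f (g.symm v) := rfl

lemma trHom_injective : Function.Injective (trHom (p := p) (V := V)) := by
  intro g h e
  have key : ∀ v, g.symm v = h.symm v := fun v => by
    rw [← sub_eq_zero, ← Module.forall_dual_apply_eq_zero_iff (ZMod p)]
    intro f
    have := LinearMap.congr_fun (LinearEquiv.congr_fun e f) v
    rw [trHom_apply, trHom_apply] at this
    rw [map_sub, this, sub_self]
  ext v
  obtain ⟨w, rfl⟩ := g.symm.surjective v
  rw [LinearEquiv.apply_symm_apply, key, LinearEquiv.apply_symm_apply]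

/-- The dual pair of a pair. -/
def dualPair (a : V × Dual (ZMod p) V) : Dual (ZMod p) V × Dual (ZMod p) (Dual (ZMod p) V) :=
  (a.2, -Dual.eval (ZMod p) V a.1)

namespace Comp

variable {G : Subgroup (V ≃ₗ[ZMod p] V)} {C : Set (V × Dual (ZMod p) V)} (L : Comp G C)
include L

lemma trHom_tv {a : V × Dual (ZMod p) V} (ha : a ∈ C) {g : V ≃ₗ[ZMod p] V}
    (hg : ∀ v, g v = v + a.2 v • a.1) (f : Dual (ZMod p) V) :
    trHom g f = f + (dualPair a).2 f • (dualPair a).1 := by
  ext v
  rw [trHom_apply, symm_tv (L.tv a ha).1 hg]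
  simp [dualPair]
  ring

variable [Finite V]

lemma dualComp : Comp (G.map trHom) (dualPair '' C) where
  tv := by
    rintro _ ⟨a, ha, rfl⟩
    obtain ⟨h0, g, hg, hgv⟩ := L.tv a ha
    exact ⟨by simp [dualPair, h0], trHom g, Subgroup.mem_map_of_mem _ hg, L.trHom_tv ha hgv⟩
  ne := by
    rintro _ ⟨a, ha, rfl⟩
    refine ⟨(L.ne a ha).2, fun e => (L.ne a ha).1 ?_⟩
    rw [← Module.forall_dual_apply_eq_zero_iff (ZMod p)]
    intro f
    simpa [dualPair] using LinearMap.congr_fun e f
  nonempty := L.nonempty.image _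
  gen M hM := by
    rw [Subgroup.map_le_iff_le_comap]
    exact L.gen _ fun a ha g hg hgv =>
      hM _ ⟨a, ha, rfl⟩ _ (Subgroup.mem_map_of_mem _ hg) (L.trHom_tv ha hgv)
  split U hU := by
    have key : ∀ a ∈ C, a.1 ∈ U.dualCoannihilator ∨ U.dualCoannihilator ≤ LinearMap.ker a.2 := by
      intro a ha
      rcases hU _ ⟨a, ha, rfl⟩ with h | h
      · exact Or.inr fun v hv => (Submodule.mem_dualCoannihilator v).mp hv _ h
      · exact Or.inl ((Submodule.mem_dualCoannihilator _).mpr fun f hf => by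
          simpa [dualPair] using h hf)
    rcases L.split _ key with h | h
    · refine Or.inr ?_
      rintro _ ⟨a, ha, rfl⟩ f hf
      simp [dualPair, (Submodule.mem_dualCoannihilator _).mp (h a ha) f hf]
    · refine Or.inl ?_
      rintro _ ⟨a, ha, rfl⟩
      show a.2 ∈ U
      rw [← Subspace.dualCoannihilator_dualAnnihilator_eq (W := U)]
      exact (Submodule.mem_dualAnnihilator _).mpr fun v hv => h a ha hv
  noP N hN hn hp := by
    have : (N.comap trHom) ⊓ G = ⊥ := by
      refine L.noP _ inf_le_right (fun g hg n hm =>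
        Subgroup.mem_inf.mpr ⟨?_, G.mul_mem (G.mul_mem hg hm.2) (G.inv_mem hg)⟩)
        fun n hm => ?_
      · show trHom (g * n * g⁻¹) ∈ N
        rw [map_mul, map_mul, map_inv]
        exact hn _ (Subgroup.mem_map_of_mem _ hg) _ hm.1
      · obtain ⟨k, hk⟩ := hp _ hm.1
        exact ⟨k, trHom_injective (by rw [map_pow, hk, map_one])⟩
    rw [Subgroup.eq_bot_iff_forall]
    intro x hx
    obtain ⟨g, hg, rfl⟩ := hN hx
    have hm : g ∈ N.comap trHom ⊓ G := ⟨hx, hg⟩
    rw [this, Subgroup.mem_bot] at hm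
    rw [hm, map_one]

lemma main (hp : Odd p) :
    pX C ⊓ pK C = ⊥ ∧ (FullLinear G (pX C) ∨ FullSymplectic G (pX C)) := by
  obtain ⟨d, hd1, hd⟩ := L.exists_dim
  by_cases h2 : 2 ≤ d
  · exact ⟨L.lin_inf hd h2, Or.inl (L.lin_full hd h2)⟩
  · obtain rfl : d = 1 := by omega
    exact ⟨(L.sp_full hd hp).1, Or.inr (L.sp_full hd hp).2⟩

lemma sup_eq_top (hp : Odd p) : pX C ⊔ pK C = ⊤ := by
  have h1 := (L.main hp).1
  haveI : NeZero p := ⟨(Fact.out : p.Prime).ne_zero⟩
  haveI : Finite (Dual (ZMod p) V) := Finite.of_injective _ DFunLike.coe_injective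
  have h2 := (L.dualComp.main hp).1
  set Φ := Submodule.span (ZMod p) (Prod.snd '' C) with hΦ
  have eX : pX (dualPair '' C) = Φ := by
    rw [pX, Set.image_image]; rfl
  have eK : pK (dualPair '' C) = (pX C).dualAnnihilator := by
    ext f
    rw [mem_pK, Submodule.mem_dualAnnihilator]
    constructor
    · intro h v hv
      refine (Submodule.span_le (p := LinearMap.ker f)).mpr ?_ hv
      rintro _ ⟨a, ha, rfl⟩
      simpa [dualPair] using h _ ⟨a, ha, rfl⟩
    · rintro h _ ⟨a, ha, rfl⟩
      simp [dualPair, h _ (Submodule.subset_span ⟨a, ha, rfl⟩)]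
  have eK' : pK C = Φ.dualCoannihilator := by
    ext v
    rw [mem_pK, Submodule.mem_dualCoannihilator]
    constructor
    · intro h f hf
      refine (Submodule.span_le (p := LinearMap.ker (Dual.eval (ZMod p) V v))).mpr ?_ hf
      rintro _ ⟨a, ha, rfl⟩
      exact h a ha
    · intro h a ha
      exact h _ (Submodule.subset_span ⟨a, ha, rfl⟩)
  rw [eX, eK] at h2
  apply Submodule.eq_top_of_finrank_eq
  have a1 := Submodule.finrank_sup_add_finrank_inf_eq (pX C) (pK C)
  have a2 := Submodule.finrank_sup_add_finrank_inf_eq Φ (pX C).dualAnnihilator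
  rw [h1, finrank_bot] at a1
  rw [h2, finrank_bot] at a2
  have a3 := Submodule.finrank_le (Φ ⊔ (pX C).dualAnnihilator)
  have a4 := Submodule.finrank_le (pX C ⊔ pK C)
  have a5 := Subspace.finrank_add_finrank_dualAnnihilator_eq (pX C)
  have a6 := Subspace.finrank_add_finrank_dualCoannihilator_eq Φ
  rw [← eK'] at a6
  rw [Subspace.dual_finrank_eq] at a3
  omega

end Comp

end Cfsg.Agent.H92.Tv
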