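import Cfsg.Agent.H92.Tv.Dual
import Cfsg.Agent.H70.SLGen
import Cfsg.Agent.H2.Witt

/-! The image of a component on the span of its vectors. -/

set_option autoImplicit false

namespace Cfsg.Agent.H92.Tv

open Module

variable {p : ℕ} [Fact p.Prime] {V : Type*} [AddCommGroup V] [Module (ZMod p) V]

/-- The automorphisms of `X` given by the matrices of determinant one. -/
noncomputable def slHom {ι : Type*} [Fintype ι] [DecidableEq ι] {X : Type*} [AddCommGroup X]
    [Module (ZMod p) X] (b : Basis ι (ZMod p) X) :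
    Matrix.SpecialLinearGroup ι (ZMod p) →* (X ≃ₗ[ZMod p] X) where
  toFun M := LinearEquiv.ofLinearMap
    (Matrix.toLin b b (M : Matrix ι ι (ZMod p)))
    (Matrix.toLin b b ((M⁻¹ : Matrix.SpecialLinearGroup ι (ZMod p)) : Matrix ι ι (ZMod p)))
    (by rw [← Matrix.toLin_mul, ← Matrix.SpecialLinearGroup.coe_mul, mul_inv_cancel,
      Matrix.SpecialLinearGroup.coe_one, Matrix.toLin_one])
    (by rw [← Matrix.toLin_mul, ← Matrix.SpecialLinearGroup.coe_mul, inv_mul_cancel,
      Matrix.SpecialLinearGroup.coe_one, Matrix.toLin_one])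
  map_one' := by
    apply LinearEquiv.toLinearMap_injective
    show Matrix.toLin b b _ = _
    rw [Matrix.SpecialLinearGroup.coe_one, Matrix.toLin_one]; rfl
  map_mul' M N := by
    apply LinearEquiv.toLinearMap_injective
    show Matrix.toLin b b _ = _
    rw [Matrix.SpecialLinearGroup.coe_mul, Matrix.toLin_mul b b b]; rfl

namespace Comp

variable [Finite V] {G : Subgroup (V ≃ₗ[ZMod p] V)} {C : Set (V × Dual (ZMod p) V)} (L : Comp G C)

/-- The action on the span of the vectors. -/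
def resHom : ↥G →* (↥(pX C) ≃ₗ[ZMod p] ↥(pX C)) where
  toFun g :=
    { toFun := fun v => ⟨(g : V ≃ₗ[ZMod p] V) v, L.map_X g.2 v.2⟩
      invFun := fun v => ⟨(g⁻¹ : V ≃ₗ[ZMod p] V) v, L.map_X (inv_mem g.2) v.2⟩
      map_add' := fun u v => Subtype.ext (map_add _ _ _)
      map_smul' := fun c v => Subtype.ext (map_smul _ _ _)
      left_inv := fun v => Subtype.ext ((g : V ≃ₗ[ZMod p] V).symm_apply_apply _)
      right_inv := fun v => Subtype.ext ((g : V ≃ₗ[ZMod p] V).apply_symm_apply _) }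
  map_one' := by ext; rfl
  map_mul' _ _ := by ext; rfl

lemma resHom_apply (g : ↥G) (v : pX C) : ((L.resHom g v : pX C) : V) = (g : V ≃ₗ[ZMod p] V) v := rfl

include L

lemma det_res (g : ↥G) : LinearMap.det (L.resHom g : ↥(pX C) →ₗ[ZMod p] ↥(pX C)) = 1 := by
  let M : Subgroup (V ≃ₗ[ZMod p] V) := (LinearEquiv.det.comp L.resHom).ker.map G.subtype
  have hg : (g : V ≃ₗ[ZMod p] V) ∈ M := by
    refine L.gen M (fun a ha t ht htv => ⟨⟨t, ht⟩, ?_, rfl⟩) g.2
    show LinearEquiv.det (L.resHom ⟨t, ht⟩) = 1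
    let x : pX C := ⟨a.1, L.tv_mem_X (L.tv a ha) (L.ne a ha).2⟩
    have hf : (a.2 ∘ₗ (pX C).subtype) x = 0 := (L.tv a ha).1
    rw [show L.resHom ⟨t, ht⟩ = LinearEquiv.transvection hf from ?_]
    · exact LinearEquiv.transvection.det_eq_one hf
    · ext v
      rw [resHom_apply, htv, LinearEquiv.transvection.apply]
      rfl
  obtain ⟨g', hg', e⟩ := hg
  obtain rfl : g' = g := Subtype.ext e
  have := congrArg Units.val (show LinearEquiv.det (L.resHom g') = 1 from hg')
  simpa using this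

lemma range_linear (h : FullLinear G (pX C)) :
    (L.resHom.range : Set (↥(pX C) ≃ₗ[ZMod p] ↥(pX C))) =
      {f : ↥(pX C) ≃ₗ[ZMod p] ↥(pX C) | LinearMap.det (f : ↥(pX C) →ₗ[ZMod p] ↥(pX C)) = 1} := by
  refine Set.Subset.antisymm (by rintro _ ⟨g, rfl⟩; exact L.det_res g) fun f hf => ?_
  let b := Module.finBasis (ZMod p) (pX C)
  have htop : L.resHom.range.comap (slHom b) = ⊤ := by
    rcases subsingleton_or_nontrivial (Fin (finrank (ZMod p) (pX C))) with hs | hn
    · refine eq_top_iff.mpr fun M _ => ?_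
      have : M = 1 := Subtype.ext <| by
        ext i j
        obtain rfl := Subsingleton.elim i j
        have := M.2
        rw [Matrix.det_eq_elem_of_subsingleton _ i] at this
        simpa using this
      rw [this]
      exact one_mem _
    refine Cfsg.Agent.H70.eq_top_of_transvection_mem _ fun i j hij c => ?_
    obtain ⟨φ, ⟨-, g, hg, hgv⟩, hφ⟩ := h (b i) (c • b.coord j) (by simp [hij])
    refine ⟨⟨g, hg⟩, ?_⟩
    refine LinearEquiv.toLinearMap_injective (b.ext fun k => Subtype.ext ?_)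
    show g (b k : V) = _
    rw [hgv, hφ]
    show _ = ((Matrix.toLin b b (Matrix.transvection i j c) (b k) : pX C) : V)
    rw [Matrix.toLin_self]
    by_cases hk : k = j
    · subst hk
      simp [Matrix.transvection, Matrix.one_apply, Matrix.single_apply, add_smul,
        Finset.sum_add_distrib]
    · simp [Matrix.transvection, Matrix.one_apply, Matrix.single_apply, add_smul,
        Finset.sum_add_distrib, hk, Ne.symm hk]
  let M : Matrix.SpecialLinearGroup (Fin (finrank (ZMod p) (pX C))) (ZMod p) :=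
    ⟨LinearMap.toMatrix b b (f : ↥(pX C) →ₗ[ZMod p] ↥(pX C)), by rw [LinearMap.det_toMatrix]; exact hf⟩
  have hM : M ∈ L.resHom.range.comap (slHom b) := htop ▸ Subgroup.mem_top M
  have e : slHom b M = f := LinearEquiv.toLinearMap_injective (Matrix.toLin_toMatrix b b _)
  rw [← e]
  exact hM

lemma range_symplectic (h : FullSymplectic G (pX C)) :
    ∃ B : LinearMap.BilinForm (ZMod p) ↥(pX C), B.IsAlt ∧ B.Nondegenerate ∧
      (L.resHom.range : Set (↥(pX C) ≃ₗ[ZMod p] ↥(pX C))) =
        {f : ↥(pX C) ≃ₗ[ZMod p] ↥(pX C) | ∀ x y, B (f x) (f y) = B x y} := by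
  obtain ⟨B, hA, hN, hinv, hT⟩ := h
  refine ⟨B, hA, hN, Set.Subset.antisymm ?_ ?_⟩
  · rintro _ ⟨g, rfl⟩ x y
    exact hinv g g.2 x y _ _ rfl rfl
  intro f hf
  let ρ : ↥G →* Module.End (ZMod p) (pX C) :=
    (LinearEquiv.automorphismGroup.toLinearMapMonoidHom).comp L.resHom
  let b := Module.finBasis (ZMod p) (pX C)
  obtain ⟨g, -, hg⟩ := Cfsg.Agent.H2.exists_mem_map_tuple hN hA ρ ⊤ (fun v c => by
    obtain ⟨φ, ⟨-, g, hg, hgv⟩, hφ⟩ := hT v (-c)
    refine ⟨⟨g, hg⟩, Subgroup.mem_top _, fun x => Subtype.ext ?_⟩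
    show g (x : V) = _
    rw [hgv, hφ, ← hA.neg_eq v x]
    simp)
    (fun g _ x y => hinv g g.2 x y _ _ rfl rfl)
    (fun i => b i) (fun i => f (b i)) b.linearIndependent
    (b.linearIndependent.map' (f : ↥(pX C) →ₗ[ZMod p] ↥(pX C)) f.ker) (fun i j => (hf _ _).symm)
  exact ⟨g, LinearEquiv.toLinearMap_injective (b.ext fun i => hg i)⟩

end Comp

end Cfsg.Agent.H92.Tv
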