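import Cfsg.Agent.H92.Tv.Comp

/-! The linear case: some point carries two independent transvection functionals. -/

set_option autoImplicit false

namespace Cfsg.Agent.H92.Tv

open Module

variable {p : ℕ} [Fact p.Prime] {V : Type*} [AddCommGroup V] [Module (ZMod p) V]

/-- The conclusion in the linear case. -/
def FullLinear (G : Subgroup (V ≃ₗ[ZMod p] V)) (X : Submodule (ZMod p) V) : Prop :=
  ∀ (x : X) (f : Dual (ZMod p) X), f x = 0 → ∃ φ, IsTv G (x : V) φ ∧ ∀ v : X, φ v = f v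

namespace Comp

variable [Finite V] {G : Subgroup (V ≃ₗ[ZMod p] V)} {C : Set (V × Dual (ZMod p) V)} {x w : V}
  (L : Comp G C) {d : ℕ} (hd : ∀ y, Point G y → finrank (ZMod p) (A G y) = d) (h2 : 2 ≤ d)
include L

lemma A_ne (hx : Point G x) (hw : w ∉ Submodule.span (ZMod p) {x}) : A G x ≠ A G w := by
  intro e
  obtain ⟨hx0, φ, hφ, hφ0⟩ := hx
  obtain ⟨z, hz, hφz⟩ := L.exists_seen hφ hx0 hφ0
  obtain ⟨χ, hχ, hχx⟩ := L.adj_symm ⟨hx0, φ, hφ, hφ0⟩ hz ⟨φ, hφ, hφz⟩
  set w' := w + (-(χ w / χ x)) • x with hw'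
  have hw'0 : w' ≠ 0 := fun h => hw (by
    rw [Submodule.mem_span_singleton]
    exact ⟨χ w / χ x, by rw [hw', neg_smul, add_neg_eq_zero] at h; exact h.symm⟩)
  have hφw : IsTv G w φ := (e ▸ hφ : φ ∈ A G w)
  have hw'φ : IsTv G w' φ := isTv_add_left hφw (isTv_smul_left _ hφ)
  obtain ⟨χ', hχ', hχ'w⟩ := L.adj_symm (point_of_tv hw'φ hw'0 hφ0) hz ⟨φ, hw'φ, hφz⟩
  apply hχ'w
  set η := χ' + (-(χ' x / χ x)) • χ with hη
  have hηx : η x = 0 := by simp [hη, div_mul_cancel₀ _ hχx]
  have hηz : IsTv G z η := isTv_add_right hχ' (isTv_smul_right _ hχ)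
  have hηA : η ∈ A G w := e ▸ isTv_commutator hφ hηz hφz hηx
  have hηw : η w' = 0 := by simp [hw', hηA.1, hηx]
  have hχw' : χ w' = 0 := by simp [hw', div_mul_cancel₀ _ hχx]
  simpa [hη, hχw'] using hηw

include hd h2

lemma adj_of_indep (hx : Point G x) (hw : Point G w) (hi : w ∉ Submodule.span (ZMod p) {x}) :
    Adj G x w := by
  by_contra hn
  have hker : ∀ φ, IsTv G x φ → φ w = 0 := fun φ hφ => by
    by_contra h
    exact hn ⟨φ, hφ, h⟩
  have J : ∀ v, Point G v → Adj G x v → Adj G w v → ∀ φ, IsTv G x φ → φ v = 0 → IsTv G w φ := by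
    intro v hv hxv hwv φ hφ hφv
    obtain ⟨χ, hχ, hχx⟩ := L.adj_symm hx hv hxv
    obtain ⟨ψ, hψ, hψv⟩ := hwv
    exact isTv_commutator hψ (isTv_commutator hχ hφ hχx hφv) hψv (hker φ hφ)
  obtain ⟨z, hz, hxz, hwz⟩ := L.exists_common hx hw hn
  obtain ⟨φ, hφ, hφ0, hφz⟩ : ∃ φ, IsTv G x φ ∧ φ ≠ 0 ∧ φ z = 0 := by
    let e : A G x →ₗ[ZMod p] ZMod p := (Dual.eval (ZMod p) V z).comp (A G x).subtype
    have h1 := LinearMap.finrank_range_add_finrank_ker e
    have h3 : finrank (ZMod p) (LinearMap.range e) ≤ 1 :=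
      (Submodule.finrank_le _).trans (by rw [finrank_self])
    have h4 : LinearMap.ker e ≠ ⊥ := by
      intro h
      rw [h, finrank_bot, hd x hx] at h1
      omega
    obtain ⟨⟨φ, hφ⟩, hker', hne⟩ := Submodule.exists_mem_ne_zero_of_ne_bot h4
    exact ⟨φ, hφ, fun h => hne (Subtype.ext h), by simpa [e] using hker'⟩
  have hwφ := J z hz hxz hwz φ hφ hφz
  obtain ⟨v, hv, hφv⟩ := L.exists_seen hφ hx.1 hφ0
  have hle : A G x ≤ A G w := by
    intro χ hχ
    have h1 : IsTv G x (χ + (-(χ v / φ v)) • φ) := isTv_add_right hχ (isTv_smul_right _ hφ)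
    have h2' := J v hv ⟨φ, hφ, hφv⟩ ⟨φ, hwφ, hφv⟩ _ h1 (by simp [div_mul_cancel₀ _ hφv])
    have h3 := isTv_add_right h2' (isTv_smul_right (χ v / φ v) hwφ)
    rwa [add_assoc, ← add_smul, neg_add_cancel, zero_smul, add_zero] at h3
  exact L.A_ne hx hi (Submodule.eq_of_le_of_finrank_eq hle (by rw [hd x hx, hd w hw]))

lemma points_all {v : V} (hv : v ∈ pX C) : v = 0 ∨ Point G v := by
  induction hv using Submodule.span_induction with
  | mem v hv => obtain ⟨a, ha, rfl⟩ := hv; exact Or.inr (L.point_of_mem ha)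
  | zero => exact Or.inl rfl
  | add a b _ _ iha ihb =>
    rcases iha with rfl | ha
    · rw [zero_add]; exact ihb
    rcases ihb with rfl | hb
    · rw [add_zero]; exact Or.inr ha
    by_cases hi : b ∈ Submodule.span (ZMod p) {a}
    · obtain ⟨c, rfl⟩ := Submodule.mem_span_singleton.mp hi
      rw [show a + c • a = (1 + c) • a by rw [add_smul, one_smul]]
      by_cases hc : (1 : ZMod p) + c = 0
      · exact Or.inl (by rw [hc, zero_smul])
      · exact Or.inr (point_smul hc ha)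
    · obtain ⟨φ, hφ, hφb⟩ := L.adj_of_indep hd h2 ha hb hi
      have := point_line hφ hφb hb 1
      rw [one_smul, add_comm] at this
      exact Or.inr this
  | smul c a _ ih =>
    rcases ih with rfl | ha
    · exact Or.inl (smul_zero c)
    by_cases hc : c = 0
    · exact Or.inl (by rw [hc, zero_smul])
    · exact Or.inr (point_smul hc ha)

lemma lin_inf : pX C ⊓ pK C = ⊥ := by
  rw [Submodule.eq_bot_iff]
  rintro v ⟨hv, hK⟩
  rcases L.points_all hd h2 hv with h | h
  · exact h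
  · exact absurd hK (L.point_not_mem_K h)

lemma lin_full : FullLinear G (pX C) := by
  intro x f hf
  by_cases hx0 : x = 0
  · subst hx0
    obtain ⟨φ, hφ⟩ := LinearMap.exists_extend f
    exact ⟨φ, by simpa using isTv_zero_left φ, fun v => LinearMap.congr_fun hφ v⟩
  have hx : Point G (x : V) := (L.points_all hd h2 x.2).resolve_left (fun h => hx0 (Subtype.ext h))
  let I : Submodule (ZMod p) (Dual (ZMod p) (pX C)) := (A G (x : V)).map (pX C).subtype.dualMap
  have hI : I.dualCoannihilator ≤ Submodule.span (ZMod p) {x} := by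
    intro v hv
    by_contra hvx
    have hv0 : (v : V) ≠ 0 := fun h => hvx (by
      rw [show v = 0 from Subtype.ext h]; exact zero_mem _)
    have hvx' : (v : V) ∉ Submodule.span (ZMod p) {(x : V)} := fun h => hvx (by
      obtain ⟨c, hc⟩ := Submodule.mem_span_singleton.mp h
      exact Submodule.mem_span_singleton.mpr ⟨c, Subtype.ext hc⟩)
    obtain ⟨φ, hφ, hφv⟩ :=
      L.adj_of_indep hd h2 hx ((L.points_all hd h2 v.2).resolve_left hv0) hvx'
    apply hφv
    have := (Submodule.mem_dualCoannihilator _).mp hv _ (Submodule.mem_map_of_mem (f := (pX C).subtype.dualMap) hφ)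
    simpa using this
  have hfI : f ∈ I := by
    rw [← Subspace.dualCoannihilator_dualAnnihilator_eq (W := I)]
    refine (Submodule.mem_dualAnnihilator _).mpr fun v hv => ?_
    obtain ⟨c, rfl⟩ := Submodule.mem_span_singleton.mp (hI hv)
    rw [map_smul, hf, smul_zero]
  obtain ⟨φ, hφ, e⟩ := hfI
  exact ⟨φ, hφ, fun v => by rw [← e]; rfl⟩

end Comp

end Cfsg.Agent.H92.Tv
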