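import Cfsg.Agent.H92.Tv.Decomp

/-! McLaughlin's theorem on groups generated by transvections, over a prime field of odd order. -/

set_option autoImplicit false

namespace Cfsg.Agent.H92.Tv

open Module

variable {p : ℕ} [Fact p.Prime] {V : Type*} [AddCommGroup V] [Module (ZMod p) V]

lemma isTv_of_orderOf [Finite V] {H : Subgroup (V ≃ₗ[ZMod p] V)} {t : V ≃ₗ[ZMod p] V} (ht : t ∈ H)
    (ho : orderOf t = p)
    (hk : finrank (ZMod p) ↥(LinearMap.ker ((t : V →ₗ[ZMod p] V) - LinearMap.id)) + 1 =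
      finrank (ZMod p) V) :
    ∃ a : V × Dual (ZMod p) V, IsTv H a.1 a.2 ∧ a.1 ≠ 0 ∧ a.2 ≠ 0 ∧ ∀ v, t v = v + a.2 v • a.1 := by
  have hd : t ∈ LinearEquiv.dilatransvections (ZMod p) V := by
    rw [LinearEquiv.mem_dilatransvections_iff_finrank]
    have := LinearMap.finrank_range_add_finrank_ker ((t : V →ₗ[ZMod p] V) - LinearMap.id)
    omega
  obtain ⟨f, x, hfx⟩ := hd
  have hv : ∀ v, t v = v + f v • x := fun v => by
    have := LinearMap.congr_fun hfx v
    rwa [LinearMap.transvection.apply] at this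
  have ht1 : t ≠ 1 := by
    rintro rfl
    rw [orderOf_one] at ho
    exact (Fact.out : p.Prime).ne_one ho.symm
  have hx : x ≠ 0 := fun e => ht1 (LinearEquiv.ext fun v => by rw [hv, e, smul_zero, add_zero]; rfl)
  have hf : f ≠ 0 := fun e => ht1 (LinearEquiv.ext fun v => by
    rw [hv, e, LinearMap.zero_apply, zero_smul, add_zero]; rfl)
  have hpow : ∀ k : ℕ, (t ^ k) x = (1 + f x) ^ k • x := by
    intro k
    induction k with
    | zero => simp
    | succ n ih => rw [pow_succ', LinearEquiv.mul_apply, ih, map_smul, hv, pow_succ]; module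
  have h0 : f x = 0 := by
    have h := hpow p
    have htp : t ^ p = 1 := by simpa [ho] using pow_orderOf_eq_one t
    rw [htp, ZMod.pow_card, LinearEquiv.coe_one, id_eq] at h
    have h2 : f x • x = 0 := by
      rw [add_smul, one_smul] at h
      simpa using h.symm
    exact (smul_eq_zero.mp h2).resolve_right hx
  exact ⟨(x, f), ⟨h0, t, ht, hv⟩, hx, hf, hv⟩

/-- The full decomposition, with the component groups abstractly indexed. -/
theorem decomposition [Finite V] (hp : Odd p) {H : Subgroup (V ≃ₗ[ZMod p] V)}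
    (hgen : H ≤ Subgroup.closure {g | g ∈ H ∧ ∃ a : Pair H, ∀ v, g v = v + a.1.2 v • a.1.1})
    (hOp : Cfsg.pCore p ↥H = ⊥) {n : ℕ} (e : Fin n ≃ Quotient (linkSetoid H)) :
    ∃ (W : Fin (n + 1) → Submodule (ZMod p) V) (K : Fin n → Subgroup (V ≃ₗ[ZMod p] V)),
      DirectSum.IsInternal W ∧
      (∀ h ∈ H, ∀ i, (W i).map (h : V →ₗ[ZMod p] V) = W i) ∧
      (∀ j, K j ≤ H ∧ ((K j).subgroupOf H).Normal) ∧ ⨆ j, K j = H ∧
      (∀ j, K j ⊓ (⨆ j' ∈ {j' : Fin n | j' ≠ j}, K j') = ⊥) ∧
      (∀ j j', j ≠ j' → ∀ a ∈ K j, ∀ b ∈ K j', a * b = b * a) ∧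
      (∀ j, ∀ h ∈ K j, ∀ i : Fin (n + 1), i ≠ j.succ → ∀ v ∈ W i, h v = v) ∧
      (∀ j, ∃ ρ : ↥(K j) →* (↥(W j.succ) ≃ₗ[ZMod p] ↥(W j.succ)),
        (∀ (h : ↥(K j)) (v : ↥(W j.succ)), ((ρ h v : ↥(W j.succ)) : V) = (h : V ≃ₗ[ZMod p] V) (v : V)) ∧
        ((ρ.range : Set (↥(W j.succ) ≃ₗ[ZMod p] ↥(W j.succ))) =
            {f : ↥(W j.succ) ≃ₗ[ZMod p] ↥(W j.succ) | LinearMap.det (f : ↥(W j.succ) →ₗ[ZMod p] ↥(W j.succ)) = 1} ∨
          ∃ B : LinearMap.BilinForm (ZMod p) ↥(W j.succ), B.IsAlt ∧ B.Nondegenerate ∧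
            (ρ.range : Set (↥(W j.succ) ≃ₗ[ZMod p] ↥(W j.succ))) = {f : ↥(W j.succ) ≃ₗ[ZMod p] ↥(W j.succ) | ∀ x y, B (f x) (f y) = B x y})) := by
  have L : ∀ j, Comp (classGroup (e j)) (classPairs (e j)) := fun j => class_comp hOp hgen (e j)
  let X : Fin n → Submodule (ZMod p) V := fun j => pX (classPairs (e j))
  let Kf : Fin n → Submodule (ZMod p) V := fun j => pK (classPairs (e j))
  let W : Fin (n + 1) → Submodule (ZMod p) V := Fin.cases (⨅ j, Kf j) X
  have hXK : ∀ i j, i ≠ j → X i ≤ Kf j := by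
    intro i j hij
    refine Submodule.span_le.mpr ?_
    rintro _ ⟨a, ha, rfl⟩
    exact mem_pK.mpr fun b hb => cross_zero (e.injective.ne hij.symm) hb ha
  have hWK : ∀ (j : Fin n) (i : Fin (n + 1)), i ≠ j.succ → W i ≤ Kf j := by
    intro j i hi
    induction i using Fin.cases with
    | zero => exact iInf_le _ j
    | succ k => exact hXK k j (fun h => hi (by rw [h]))
  have hfix : ∀ (j : Fin n), ∀ g ∈ classGroup (e j), ∀ (i : Fin (n + 1)), i ≠ j.succ → ∀ v ∈ W i, g v = v :=
    fun j g hg i hi v hv => (L j).fix_K hg (hWK j i hi hv)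
  have hle : ∀ {M : Subgroup (V ≃ₗ[ZMod p] V)}, (∀ j, classGroup (e j) ≤ M) → H ≤ M := fun hM =>
    le_of_classes hgen fun q => by simpa using hM (e.symm q)
  have hsum : ⨆ i, W i = ⊤ := by
    rw [eq_top_iff]
    intro v _
    have hdec : ∀ j, ∃ x ∈ X j, v - x ∈ Kf j := by
      intro j
      have : v ∈ X j ⊔ Kf j := by rw [(L j).sup_eq_top hp]; exact Submodule.mem_top
      obtain ⟨x, hx, k, hk, rfl⟩ := Submodule.mem_sup.mp this
      exact ⟨x, hx, by rwa [add_sub_cancel_left]⟩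
    choose x hx hk using hdec
    have h0 : v - ∑ j, x j ∈ W 0 := by
      refine (Submodule.mem_iInf _).mpr fun i => ?_
      classical
      rw [← Finset.add_sum_erase _ _ (Finset.mem_univ i), ← sub_sub]
      exact sub_mem (hk i) (sum_mem fun j hj => hXK j i (Finset.ne_of_mem_erase hj) (hx j))
    rw [← sub_add_cancel v (∑ j, x j)]
    exact add_mem (Submodule.mem_iSup_of_mem 0 h0)
      (sum_mem fun j _ => Submodule.mem_iSup_of_mem j.succ (hx j))
  have hindep : iSupIndep W := by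
    intro i
    rw [disjoint_iff, Submodule.eq_bot_iff]
    rintro v ⟨hv, hv'⟩
    induction i using Fin.cases with
    | succ k =>
      have : (⨆ (j) (_ : j ≠ k.succ), W j) ≤ Kf k := iSup₂_le fun j hj => hWK k j hj
      have hb : v ∈ X k ⊓ Kf k := ⟨hv, this hv'⟩
      rw [((L k).main hp).1] at hb
      exact hb
    | zero =>
      classical
      have h1 : (⨆ (j) (_ : j ≠ (0 : Fin (n + 1))), W j) ≤ ⨆ k, X k := iSup₂_le fun j hj => by
        induction j using Fin.cases with
        | zero => exact absurd rfl hj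
        | succ k => exact le_iSup X k
      obtain ⟨f, hf⟩ := (Submodule.mem_iSup_iff_exists_dfinsupp' _ _).mp (h1 hv')
      have hval : v = ∑ k, (f k : V) := by
        rw [← hf, DFinsupp.sum]
        exact Finset.sum_subset (Finset.subset_univ _) fun k _ hk => by simpa using hk
      rw [hval]
      refine Finset.sum_eq_zero fun k _ => ?_
      have hk : (f k : V) ∈ X k ⊓ Kf k := by
        refine ⟨(f k).2, ?_⟩
        rw [show (f k : V) = v - ∑ j ∈ Finset.univ.erase k, (f j : V) by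
          rw [hval, ← Finset.add_sum_erase _ _ (Finset.mem_univ k), add_sub_cancel_right]]
        exact sub_mem (iInf_le Kf k hv)
          (sum_mem fun j hj => hXK j k (Finset.ne_of_mem_erase hj) (f j).2)
      rw [((L k).main hp).1] at hk
      exact hk
  have hsupfix : ∀ j, (⨆ j' ∈ {j' : Fin n | j' ≠ j}, classGroup (e j')) ≤
      (⨅ v : X j, MulAction.stabilizer (V ≃ₗ[ZMod p] V) (v : V)) := fun j =>
    iSup₂_le fun j' hj' => le_iInf fun v => fun g hg =>
      hfix j' g hg j.succ (fun h => hj' (Fin.succ_injective _ h).symm) v v.2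
  refine ⟨W, fun j => classGroup (e j), DirectSum.isInternal_submodule_of_iSupIndep_of_iSup_eq_top
    hindep hsum, ?_, fun j => ⟨classGroup_le _, ⟨fun m hm g => ?_⟩⟩, ?_, ?_, ?_, hfix, ?_⟩
  · have key : ∀ g ∈ H, ∀ i, ∀ v ∈ W i, g v ∈ W i := by
      let M : Subgroup (V ≃ₗ[ZMod p] V) :=
        { carrier := {g | ∀ i, ∀ v ∈ W i, g v ∈ W i ∧ g.symm v ∈ W i}
          one_mem' := fun i v hv => ⟨hv, hv⟩
          mul_mem' := fun {a b} ha hb i v hv => ⟨(ha i _ (hb i v hv).1).1, (hb i _ (ha i v hv).2).2⟩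
          inv_mem' := fun {a} ha i v hv => ⟨(ha i v hv).2, (ha i v hv).1⟩ }
      refine fun g hg i v hv => ((hle (M := M) (fun j t ht i v hv => ?_)) hg i v hv).1
      by_cases hi : i = j.succ
      · subst hi
        exact ⟨(L j).map_X ht hv, (L j).map_X (inv_mem ht) hv⟩
      · exact ⟨by rw [hfix j t ht i hi v hv]; exact hv,
          by rw [show t.symm v = v from hfix j t⁻¹ (inv_mem ht) i hi v hv]; exact hv⟩
    intro h hh i
    refine le_antisymm (Submodule.map_le_iff_le_comap.mpr fun v hv => key h hh i v hv) fun v hv => ?_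
    exact ⟨h.symm v, key h⁻¹ (inv_mem hh) i v hv, h.apply_symm_apply v⟩
  · exact (Subgroup.mem_normalizer_iff.mp
      (class_normal hgen le_rfl (fun g hg n hn => mul_mem (mul_mem hg hn) (inv_mem hg)) g.2) m).mp hm
  · exact le_antisymm (iSup_le fun j => classGroup_le _)
      (hle fun j => le_iSup (fun j => classGroup (e j)) j)
  · intro j
    rw [Subgroup.eq_bot_iff_forall]
    rintro g ⟨hg, hg'⟩
    refine (L j).eq_one_of_small hg fun v hv => ?_
    rw [show g v = v from Subgroup.mem_iInf.mp (hsupfix j hg') ⟨v, hv⟩, sub_self]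
    exact zero_mem _
  · exact fun j j' hne a ha b hb =>
      (Subgroup.mem_centralizer_iff.mp (cross_comm (e.injective.ne hne) ha) b hb).symm
  · intro j
    refine ⟨(L j).resHom, fun h v => rfl, ?_⟩
    rcases ((L j).main hp).2 with h | h
    · exact Or.inl ((L j).range_linear h)
    · exact Or.inr ((L j).range_symplectic h)

end Cfsg.Agent.H92.Tv
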